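import Mathlib
import Cfsg.Agent.H84.PslStmt

/-!
# S5163, piece A3 (helper47): `SimpleData` is transported by automorphisms

`map_equiv`: transport along any automorphism `φ : G ≃* G` (given the Sylow property of the
image); `main : PslStmt.MapConj`: the case of inner automorphisms.
-/

set_option autoImplicit false

namespace Cfsg.Agent.Lib.Helper47.PslA3

open Cfsg.Agent.H84.PslDefs

universe u

lemma map_mem_normalizer {G : Type*} [Group G] (φ : G ≃* G) (R : Subgroup G) (k : G)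
    (hk : k ∈ Subgroup.normalizer (R : Set G)) :
    φ k ∈ Subgroup.normalizer ((R.map φ.toMonoidHom : Subgroup G) : Set G) := by
  rw [Subgroup.mem_normalizer_iff] at hk ⊢
  intro x
  constructor
  · rintro ⟨x', hx', rfl⟩
    exact ⟨k * x' * k⁻¹, (hk x').1 hx', by simp⟩
  · rintro ⟨y, hy, hyx⟩
    refine ⟨k⁻¹ * y * k, ?_, ?_⟩
    · apply (hk (k⁻¹ * y * k)).2
      have e : k * (k⁻¹ * y * k) * k⁻¹ = y := by group
      rw [e]; exact hy
    · have e : φ.toMonoidHom (k⁻¹ * y * k) = (φ k)⁻¹ * φ y * φ k := by simp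
      rw [e]
      have hyx' : φ y = φ k * x * (φ k)⁻¹ := hyx
      rw [hyx']; group

lemma map_symm_map {G : Type*} [Group G] (φ : G ≃* G) (R : Subgroup G) :
    (R.map φ.toMonoidHom).map φ.symm.toMonoidHom = R := by
  ext x
  constructor
  · rintro ⟨_, ⟨y, hy, rfl⟩, rfl⟩
    simpa using hy
  · intro hx
    exact ⟨φ x, ⟨x, hx, rfl⟩, by simp⟩

/-- transport of `SimpleData` along an automorphism -/
theorem map_equiv {G : Type u} [Group G] {p : ℕ} [Fact p.Prime] {S Z : Subgroup G} {X : Set G}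
    {ℛ : Set (Subgroup G)} (h : SimpleData p S Z X ℛ) (φ : G ≃* G)
    (hsyl : ∃ P : Sylow p G, (P : Subgroup G) = S.map φ.toMonoidHom) :
    SimpleData p (S.map φ.toMonoidHom) (Z.map φ.toMonoidHom) (φ '' X)
      ((fun R : Subgroup G => R.map φ.toMonoidHom) '' ℛ) where
  sylow := hsyl
  ne_bot := by
    rw [Ne, Subgroup.map_eq_bot_iff_of_injective S φ.injective]
    exact h.ne_bot
  gen := by
    have := MonoidHom.map_closure φ.toMonoidHom X
    rw [h.gen] at this
    exact this.symm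
  meets := by
    intro T hT hne hnorm
    have hT' : T.comap φ.toMonoidHom ≤ S := by
      intro x hx
      obtain ⟨y, hy, hyx⟩ := hT hx
      have : y = x := φ.injective hyx
      rw [← this]; exact hy
    have hne' : T.comap φ.toMonoidHom ≠ ⊥ := by
      intro hbot
      apply hne
      rw [Subgroup.eq_bot_iff_forall] at hbot ⊢
      intro x hx
      have h1 := hbot (φ.symm x) (by show φ (φ.symm x) ∈ T; simpa using hx)
      have h2 := congrArg φ h1
      simpa using h2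
    have hnorm' : ∀ s ∈ S, ∀ t ∈ T.comap φ.toMonoidHom,
        s * t * s⁻¹ ∈ T.comap φ.toMonoidHom := by
      intro s hs t ht
      show φ (s * t * s⁻¹) ∈ T
      rw [map_mul, map_mul, map_inv]
      exact hnorm _ ⟨s, hs, rfl⟩ _ ht
    obtain ⟨z, hzT, hzZ, hz1⟩ := h.meets _ hT' hne' hnorm'
    refine ⟨φ z, hzT, ⟨z, hzZ, rfl⟩, ?_⟩
    intro h1
    apply hz1
    apply φ.injective
    rw [h1, map_one]
  conj := by
    rintro _ ⟨z, hz, rfl⟩ hz1 _ ⟨x, hx, rfl⟩
    have hz1' : z ≠ 1 := by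
      rintro rfl
      apply hz1
      simp
    obtain ⟨k, hk⟩ := h.conj z hz hz1' x hx
    refine ⟨φ k, ?_⟩
    show φ k * φ z * (φ k)⁻¹ = φ x
    rw [← map_inv, ← map_mul, ← map_mul, hk]
  rad_le := by
    rintro _ ⟨R, hR, rfl⟩
    exact Subgroup.map_mono (h.rad_le R hR)
  rad_normal := by
    rintro _ ⟨R, hR, rfl⟩ _ ⟨s, hs, rfl⟩ _ ⟨r, hr, rfl⟩
    exact ⟨s * r * s⁻¹, h.rad_normal R hR s hs r hr, by simp⟩
  rad_comm := by
    rintro _ ⟨R, hR, rfl⟩ _ ⟨a, ha, rfl⟩ _ ⟨b, hb, rfl⟩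
    show φ a * φ b = φ b * φ a
    rw [← map_mul, ← map_mul, h.rad_comm R hR a ha b hb]
  rad_cent := by
    rintro _ ⟨R, hR, rfl⟩ k hk
    have h1 : φ.symm k ∈ R := by
      apply h.rad_cent R hR
      intro r hr
      apply φ.injective
      rw [map_mul, map_mul, MulEquiv.apply_symm_apply]
      exact hk _ ⟨r, hr, rfl⟩
    exact ⟨φ.symm k, h1, by simp⟩
  rad_trans := by
    rintro _ ⟨R, hR, rfl⟩ _ ⟨a, ha, rfl⟩ _ ⟨b, hb, rfl⟩ ha1 hb1
    have ha1' : a ≠ 1 := by rintro rfl; apply ha1; simp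
    have hb1' : b ≠ 1 := by rintro rfl; apply hb1; simp
    obtain ⟨k, hk, hkab⟩ := h.rad_trans R hR a ha b hb ha1' hb1'
    refine ⟨φ k, map_mem_normalizer φ R k hk, ?_⟩
    show φ k * φ a * (φ k)⁻¹ = φ b
    rw [← map_inv, ← map_mul, ← map_mul, hkab]
  norm_gen := by
    intro k hk
    have hk' : φ.symm k ∈ Subgroup.normalizer (S : Set G) := by
      have := map_mem_normalizer φ.symm (S.map φ.toMonoidHom) k hk
      rwa [map_symm_map] at this
    have h1 := h.norm_gen hk'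
    have h2 : φ (φ.symm k) ∈ (Subgroup.closure {h' : G | h' ∈ Subgroup.normalizer (S : Set G) ∧
        ∃ R ∈ ℛ, h' ∈ Subgroup.closure {k : G | k ∈ Subgroup.normalizer (R : Set G) ∧
          ∃ e : ℕ, orderOf k = p ^ e}}).map φ.toMonoidHom := ⟨_, h1, rfl⟩
    rw [MulEquiv.apply_symm_apply, MonoidHom.map_closure] at h2
    refine Subgroup.closure_mono ?_ h2
    rintro _ ⟨h', ⟨hh'N, R, hR, hh'R⟩, rfl⟩
    refine ⟨map_mem_normalizer φ S h' hh'N, R.map φ.toMonoidHom, ⟨R, hR, rfl⟩, ?_⟩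
    have h3 : φ h' ∈ (Subgroup.closure {k : G | k ∈ Subgroup.normalizer (R : Set G) ∧
        ∃ e : ℕ, orderOf k = p ^ e}).map φ.toMonoidHom := ⟨_, hh'R, rfl⟩
    rw [MonoidHom.map_closure] at h3
    refine Subgroup.closure_mono ?_ h3
    rintro _ ⟨k', ⟨hk'N, e, he⟩, rfl⟩
    refine ⟨map_mem_normalizer φ R k' hk'N, e, ?_⟩
    rw [← he]
    exact MulEquiv.orderOf_eq φ k'

/-- **[A3]** the data is transported by inner automorphisms -/
theorem main : Cfsg.Agent.H84.PslStmt.MapConj.{u} := by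
  intro G _ p _ S Z X ℛ h g
  have hsyl : ∃ P : Sylow p G, (P : Subgroup G) = S.map (MulAut.conj g).toMonoidHom := by
    obtain ⟨P, hP⟩ := h.sylow
    refine ⟨g • P, ?_⟩
    rw [Sylow.coe_subgroup_smul, hP]
    rfl
  exact map_equiv h (MulAut.conj g) hsyl

end Cfsg.Agent.Lib.Helper47.PslA3
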