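import Mathlib
import Cfsg.Agent.Lib.Helper25.ACStmt
import Cfsg.Agent.Lib.Helper25.ACOddStmt

/-!
# S3911 piece MINCASE (helper47, second seat)

`M` minimal normal of odd order: if `M` is a `p`-group then `p ≠ 2` and `PGroupCase` applies with
`N₀ = M`; otherwise `#M` and `[G : M]` are coprime and `CopCase` applies with `N = M`.
-/

set_option autoImplicit false

namespace Cfsg.Agent.Lib.Helper47.AOMINCASE

open Cfsg.Agent.Lib.Helper25.ACStmt Cfsg.Agent.Lib.Helper25.ACOddStmt

universe u

theorem main (hH : MinHall.{u}) (hPG : PGroupCase.{u}) (hCop : CopCase.{u}) : MinCase.{u} := by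
  intro G _ _ hB M hMn hMne hodd hmin
  rcases hH G hB M hMn hMne hodd hmin with ⟨p, hp, hpM⟩ | hcop
  · haveI : Fact p.Prime := ⟨hp⟩
    have hp2 : p ≠ 2 := by
      rintro rfl
      obtain ⟨k, hk⟩ := IsPGroup.iff_card.mp hpM
      rcases Nat.eq_zero_or_pos k with rfl | hkpos
      · rw [pow_zero] at hk
        exact hMne ((Subgroup.card_eq_one).mp hk)
      · rw [hk] at hodd
        have h2 : Even (2 ^ k) := (Nat.even_pow' (Nat.pos_iff_ne_zero.mp hkpos)).mpr even_two
        exact (Nat.not_even_iff_odd.mpr hodd) h2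
    exact hPG G hB p hp2 M hMn hpM hMne
  · haveI := hMn
    exact ⟨M, hMn, hMne, le_rfl, hCop G hB M hcop⟩

end Cfsg.Agent.Lib.Helper47.AOMINCASE
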