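import Mathlib
import Cfsg.Agent.Lib.Helper45.BalStmt2
import Cfsg.Agent.Lib.Helper45.OddAut
import Cfsg.Agent.Lib.Helper45.OmegaAutIdx
import Cfsg.Agent.Lib.Helper43.H90Fin
import Cfsg.Agent.S0295

/-!
# Piece SUB of S2731: the subfield subgroup inside the fixed points of a standard field
automorphism of `PΩ_{2m+1}(F)`
-/

set_option autoImplicit false

namespace Cfsg.Agent.Lib.Helper47.BalSUB

open Module QuadraticMap Matrix
open Cfsg.Agent.Lib.Helper44.QSpace Cfsg.Agent.Lib.Helper44.NegPairs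
open Cfsg.Agent.Lib.Helper44.ODet Cfsg.Agent.Lib.Helper44.OMat
open Cfsg.Agent.Lib.Helper45.OmegaAut Cfsg.Agent.Lib.Helper45.OmegaAutIdx
open Cfsg.Agent.Lib.Helper45.SemiAut Cfsg.Agent.Lib.Helper45.OddAut
open Cfsg.Agent.Lib.Helper45.FldCoset Cfsg.Agent.Lib.Helper45.FldCent
open Cfsg.Agent.Lib.Helper43.H90Fin
open Cfsg.Agent.Lib.Helper45.BalStmt Cfsg.Agent.Lib.Helper45.BalStmt2

universe u

section gen

variable {F : Type u} [Field F] {K : Type u} [Field K] {ι : Type} [Fintype ι] [DecidableEq ι]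
variable (Q : QuadraticForm F (ι → F)) (Q' : QuadraticForm K (ι → K)) (φ : K →+* F)

/-- entrywise extension of scalars on the isometry groups -/
def isoMap (h2 : (2 : F) ≠ 0) (hc : ∀ v : ι → K, Q (fun i => φ (v i)) = φ (Q' v)) :
    ↥(Cfsg.isometryGroup K ⇑Q') →* ↥(Cfsg.isometryGroup F ⇑Q) where
  toFun g := ⟨Matrix.GeneralLinearGroup.map φ (g : GL ι K), iso_map Q Q' φ h2 hc g.2⟩
  map_one' := Subtype.ext (map_one _)
  map_mul' _ _ := Subtype.ext (map_mul _ _ _)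

/-- entrywise extension of scalars on `Ω` -/
def omMap (h2 : (2 : F) ≠ 0) (hc : ∀ v : ι → K, Q (fun i => φ (v i)) = φ (Q' v)) :
    ↥(Cfsg.Omega K ⇑Q') →* ↥(Cfsg.Omega F ⇑Q) :=
  ((isoMap Q Q' φ h2 hc).comp (Cfsg.Omega K ⇑Q').subtype).codRestrict (Cfsg.Omega F ⇑Q)
    (fun s => map_mem_commutator (isoMap Q Q' φ h2 hc) s.2)

theorem omMap_coe (h2 : (2 : F) ≠ 0) (hc : ∀ v : ι → K, Q (fun i => φ (v i)) = φ (Q' v))
    (s : ↥(Cfsg.Omega K ⇑Q')) :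
    ((omMap Q Q' φ h2 hc s : ↥(Cfsg.Omega F ⇑Q)) : ↥(Cfsg.isometryGroup F ⇑Q)) =
      isoMap Q Q' φ h2 hc (s : ↥(Cfsg.isometryGroup K ⇑Q')) := rfl

theorem isoMap_injective (h2 : (2 : F) ≠ 0)
    (hc : ∀ v : ι → K, Q (fun i => φ (v i)) = φ (Q' v)) :
    Function.Injective (isoMap Q Q' φ h2 hc) := by
  intro x y h
  apply Subtype.ext
  apply Units.ext
  apply Matrix.map_injective φ.injective
  exact congrArg (fun z : ↥(Cfsg.isometryGroup F ⇑Q) => ((z : GL ι F) : Matrix ι ι F)) h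

theorem omMap_injective (h2 : (2 : F) ≠ 0)
    (hc : ∀ v : ι → K, Q (fun i => φ (v i)) = φ (Q' v)) :
    Function.Injective (omMap Q Q' φ h2 hc) := by
  intro x y h
  apply Subtype.ext
  apply isoMap_injective Q Q' φ h2 hc
  exact congrArg Subtype.val h

variable [Fintype F] [Fintype K] [Nonempty ι]

theorem sub_gen (hODD : OmegaBack.{u}) (h2 : (2 : F) ≠ 0) (h2K : (2 : K) ≠ 0) (hS : Sep Q)
    (hS' : Sep Q') (hn : 2 ≤ Fintype.card ι)
    (hc : ∀ v : ι → K, Q (fun i => φ (v i)) = φ (Q' v))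
    (hσ : SigInv ⇑Q) (σ : RingAut F) (hφ2 : ∀ a, σ a = a ↔ ∃ b, φ b = a)
    (hZ : Subgroup.center ↥(Cfsg.Omega F ⇑Q) = ⊥)
    (hZ' : Subgroup.center ↥(Cfsg.Omega K ⇑Q') = ⊥)
    (hsimple : IsSimpleGroup (Cfsg.POmega K ⇑Q'))
    (hinv : ∃ s : ↥(Cfsg.Omega K ⇑Q'), s ≠ 1 ∧ s * s = 1) :
    ∃ L₀ : Subgroup (Cfsg.POmega F ⇑Q), IsSimpleGroup ↥L₀ ∧ 2 ∣ Nat.card ↥L₀ ∧
      (∀ k ∈ L₀, cσ hσ σ k = k) ∧ (∀ k, cσ hσ σ k = k → k * k ∈ L₀) ∧
      (Odd (orderOf σ) → ∀ k, cσ hσ σ k = k → k ∈ L₀) := by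
  classical
  obtain ⟨ψ₁, hψ₁⟩ : ∃ ψ₁ : ↥(Cfsg.Omega K ⇑Q') →* Cfsg.POmega F ⇑Q,
      ∀ s, ψ₁ s = QuotientGroup.mk (omMap Q Q' φ h2 hc s) :=
    ⟨(QuotientGroup.mk' _).comp (omMap Q Q' φ h2 hc), fun s => rfl⟩
  have hψ₁inj : Function.Injective ψ₁ := by
    intro s s' h
    rw [hψ₁, hψ₁] at h
    exact omMap_injective Q Q' φ h2 hc (mk_inj hZ h)
  have hφ' : ∀ b, σ (φ b) = φ b := fun b => (hφ2 _).2 ⟨b, rfl⟩
  obtain ⟨e1⟩ : Nonempty (↥(Cfsg.Omega K ⇑Q') ≃* ↥ψ₁.range) := ⟨MonoidHom.ofInjective hψ₁inj⟩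
  -- fixed points lift to the special orthogonal group over `K`
  have key : ∀ s : ↥(Cfsg.Omega F ⇑Q), omAut hσ σ s = s →
      ∃ x₀ : ↥(Cfsg.specialIsometryGroup K ⇑Q'),
        isoMap Q Q' φ h2 hc (x₀ : ↥(Cfsg.isometryGroup K ⇑Q')) = (s : ↥(Cfsg.isometryGroup F ⇑Q)) ∧
        ((mapSO Q Q' φ h2 hc x₀ : ↥(Cfsg.specialIsometryGroup F ⇑Q)) :
          ↥(Cfsg.isometryGroup F ⇑Q)) = (s : ↥(Cfsg.isometryGroup F ⇑Q)) := by
    intro s hs
    have hx : sigSO Q hσ σ ⟨(s : ↥(Cfsg.isometryGroup F ⇑Q)), omega_le_special Q s.2⟩ =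
        ⟨(s : ↥(Cfsg.isometryGroup F ⇑Q)), omega_le_special Q s.2⟩ := by
      apply Subtype.ext
      apply Subtype.ext
      exact congrArg (fun z : ↥(Cfsg.Omega F ⇑Q) => ((z : ↥(Cfsg.isometryGroup F ⇑Q)) : GL ι F)) hs
    obtain ⟨x₀, hx₀⟩ := exists_K Q Q' φ h2 h2K hc hσ σ (fun a ha => (hφ2 a).1 ha) _ hx
    have h1 := congrArg (fun z : ↥(Cfsg.specialIsometryGroup F ⇑Q) =>
      (z : ↥(Cfsg.isometryGroup F ⇑Q))) hx₀
    exact ⟨x₀, h1, h1⟩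
  refine ⟨ψ₁.range, ?_, ?_, ?_, ?_, ?_⟩
  · have e2 : Cfsg.POmega K ⇑Q' ≃* ↥(Cfsg.Omega K ⇑Q') :=
      (QuotientGroup.quotientMulEquivOfEq hZ').trans QuotientGroup.quotientBot
    have := hsimple
    exact (e2.trans e1).symm.isSimpleGroup
  · obtain ⟨s, hs1, hs2⟩ := hinv
    have ho : orderOf s = 2 := orderOf_eq_prime (by rw [pow_two]; exact hs2) hs1
    rw [← Nat.card_congr e1.toEquiv, ← ho]
    exact orderOf_dvd_natCard s
  · rintro _ ⟨s₀, rfl⟩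
    rw [hψ₁, cσ_mk]
    congr 1
    apply Subtype.ext
    apply Subtype.ext
    rw [omAut_coe]
    apply Units.ext
    ext i j
    exact hφ' _
  · intro k hk
    induction k using QuotientGroup.induction_on with
    | H s =>
      rw [cσ_mk] at hk
      have hs : omAut hσ σ s = s := mk_inj hZ hk
      obtain ⟨x₀, hx₀, -⟩ := key s hs
      have hidx := index_omega_in_so (Q := Q') h2K hS' hn
      have hsq : x₀ * x₀ ∈ (Cfsg.Omega K ⇑Q').subgroupOf (Cfsg.specialIsometryGroup K ⇑Q') :=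
        Subgroup.mul_self_mem_of_index_two hidx x₀
      refine ⟨⟨((x₀ * x₀ : ↥(Cfsg.specialIsometryGroup K ⇑Q')) :
        ↥(Cfsg.isometryGroup K ⇑Q')), Subgroup.mem_subgroupOf.mp hsq⟩, ?_⟩
      rw [hψ₁, ← QuotientGroup.mk_mul]
      congr 1
      apply Subtype.ext
      rw [omMap_coe, Subgroup.coe_mul]
      show isoMap Q Q' φ h2 hc ((x₀ : ↥(Cfsg.isometryGroup K ⇑Q')) * x₀) = _
      rw [map_mul, hx₀]
      rfl
  · intro hodd k hk
    induction k using QuotientGroup.induction_on with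
    | H s =>
      rw [cσ_mk] at hk
      have hs : omAut hσ σ s = s := mk_inj hZ hk
      obtain ⟨x₀, hx₀, hx₀'⟩ := key s hs
      have hmem : ((mapSO Q Q' φ h2 hc x₀ : ↥(Cfsg.specialIsometryGroup F ⇑Q)) :
          ↥(Cfsg.isometryGroup F ⇑Q)) ∈ Cfsg.Omega F ⇑Q := by
        rw [hx₀']
        exact s.2
      have h0 := hODD F K ι Q Q' φ h2 h2K hS hS' hn hc
        (fun η hη => nonsq_of_odd σ hodd φ (fun a ha => (hφ2 a).1 ha) hφ' η hη) x₀ hmem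
      refine ⟨⟨(x₀ : ↥(Cfsg.isometryGroup K ⇑Q')), h0⟩, ?_⟩
      rw [hψ₁]
      congr 1
      apply Subtype.ext
      rw [omMap_coe]
      exact hx₀

end gen

section odd

variable {K : Type*} [Field K]

theorem compat_odd {F : Type*} [Field F] (m : ℕ) (φ : K →+* F)
    (v : Unit ⊕ (Fin m ⊕ Fin m) → K) :
    oddQ m F (fun i => φ (v i)) = φ (oddQ m K v) := by
  show Cfsg.quadFormOdd m F (fun i => φ (v i)) = φ (Cfsg.quadFormOdd m K v)
  simp only [Cfsg.quadFormOdd, map_add, map_pow, map_sum, map_mul]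

theorem char_ne_two (h2 : (2 : K) ≠ 0) : ringChar K ≠ 2 := by
  intro h
  apply h2
  have h3 := ringChar.Nat.cast_ringChar (R := K)
  rw [h] at h3
  exact_mod_cast h3

theorem q_pair (m : ℕ) (i : Fin m) :
    oddQ m K (Pi.single (Sum.inr (Sum.inl i)) 1 + Pi.single (Sum.inr (Sum.inr i)) 1) = 1 := by
  rw [odd_H1, q_single (oddQ m K) Sum.inr (odd_H1 m) (Sum.inl i)]
  simp

theorem polar_pair (m : ℕ) (i j : Fin m) (hij : i ≠ j) :
    QuadraticMap.polar (⇑(oddQ m K))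
      (Pi.single (Sum.inr (Sum.inl i)) 1 + Pi.single (Sum.inr (Sum.inr i)) 1)
      (Pi.single (Sum.inr (Sum.inl j)) 1 + Pi.single (Sum.inr (Sum.inr j)) 1) = 0 := by
  rw [QuadraticMap.polar_add_right, polar_single (oddQ m K) Sum.inr (odd_H1 m),
    polar_single (oddQ m K) Sum.inr (odd_H1 m)]
  simp [hij.symm]

end odd

theorem main (hINV : Cfsg.Agent.Lib.Helper45.BalStmt.Invol.{u})
    (hODD : Cfsg.Agent.Lib.Helper45.BalStmt.OmegaBack.{u}) :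
    Cfsg.Agent.Lib.Helper45.BalStmt2.SubField.{u} := by
  intro F _ _ m hm h2 hσ σ
  haveI : Fintype ↥(fixF σ) := Fintype.ofFinite _
  have h2K : (2 : ↥(fixF σ)) ≠ 0 := by
    intro h
    apply h2
    have h5 := congrArg (fixF σ).subtype h
    rwa [map_ofNat, map_zero] at h5
  have hcard : Fintype.card (Unit ⊕ (Fin m ⊕ Fin m)) = 2 * m + 1 := by
    simp only [Fintype.card_sum, Fintype.card_fin, Fintype.card_unit]; omega
  have hS := sep_oddQ h2 m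
  have hS' := sep_oddQ h2K m
  have hZ := center_eq_bot (oddQ m F) h2 hS hcard (by omega)
  have hZ' := center_eq_bot (oddQ m ↥(fixF σ)) h2K hS' hcard (by omega)
  have hoddK : Odd (Fintype.card ↥(fixF σ)) :=
    Nat.odd_iff.mpr (FiniteField.odd_card_of_char_ne_two (char_ne_two h2K))
  have hsimple : IsSimpleGroup (Cfsg.POmega ↥(fixF σ) ⇑(oddQ m ↥(fixF σ))) :=
    Cfsg.Agent.S0295.result hoddK m hm
  have hi : (⟨0, by omega⟩ : Fin m) ≠ ⟨1, by omega⟩ := by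
    intro h
    have := congrArg Fin.val h
    simp at this
  have hinv : ∃ s : ↥(Cfsg.Omega ↥(fixF σ) ⇑(oddQ m ↥(fixF σ))), s ≠ 1 ∧ s * s = 1 := by
    refine hINV ↥(fixF σ) (Unit ⊕ (Fin m ⊕ Fin m)) (oddQ m ↥(fixF σ)) h2K
      (Pi.single (Sum.inr (Sum.inl ⟨0, by omega⟩)) 1 + Pi.single (Sum.inr (Sum.inr ⟨0, by omega⟩)) 1)
      (Pi.single (Sum.inr (Sum.inl ⟨1, by omega⟩)) 1 + Pi.single (Sum.inr (Sum.inr ⟨1, by omega⟩)) 1)
      ?_ ?_ ?_
    · rw [q_pair]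
      exact one_ne_zero
    · rw [q_pair, q_pair]
    · exact polar_pair m _ _ hi
  have hφ2 : ∀ a, σ a = a ↔ ∃ b : ↥(fixF σ), (fixF σ).subtype b = a := by
    intro a
    constructor
    · intro ha
      exact ⟨⟨a, (mem_fixF σ a).2 ha⟩, rfl⟩
    · rintro ⟨b, rfl⟩
      exact (mem_fixF σ _).1 b.2
  exact sub_gen (oddQ m F) (oddQ m ↥(fixF σ)) (fixF σ).subtype hODD h2 h2K hS hS'
    (by rw [hcard]; omega) (compat_odd m (fixF σ).subtype) hσ σ hφ2 hZ hZ' hsimple hinv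

end Cfsg.Agent.Lib.Helper47.BalSUB
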