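import Mathlib

/-!
# A Galois-descent freeness criterion

Let a finite group `H` act faithfully on a field `L`, and let `R` be a ring containing an image
of `L` and of `H` with `ρ h * ι l = ι (h • l) * ρ h`.  Then there is `π : R` with
`π * ρ h * π = δ_{h,1} π` and `∑ h, ρ h * π * ρ h⁻¹ = 1` (normal basis theorem and its
trace-dual basis).
-/

namespace Cfsg.Agent.Lib.Helper47.FrobGal

open Finset

section NB

variable {L : Type*} [Field L] {H : Type*} [Group H] [Fintype H] [MulSemiringAction H L]
  [FaithfulSMul H L]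

theorem exists_tr_ne_zero : ∃ μ : L, ∑ x : H, x • μ ≠ 0 := by
  by_contra hcon
  push Not at hcon
  have li := linearIndependent_monoidHom L L
  let f : H → (L →* L) := fun x => ((MulSemiringAction.toRingHom H L x : L →+* L) : L →* L)
  have hf : Function.Injective f := by
    intro x y hxy
    apply FaithfulSMul.eq_of_smul_eq_smul (α := L)
    intro μ
    have := congrArg (fun g : L →* L => g μ) hxy
    simpa [f] using this
  have li2 := li.comp f hf
  have := Fintype.linearIndependent_iff.mp li2 (fun _ => 1) (by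
    funext μ
    simpa [f] using hcon μ) 1
  exact one_ne_zero this

omit [FaithfulSMul H L] in
theorem tr_mem (y : L) : (∑ x : H, x • y) ∈ FixedPoints.subfield H L := by
  intro m
  rw [Finset.smul_sum]
  simp only [smul_smul]
  exact Fintype.sum_equiv (Equiv.mulLeft m) _ _ (fun x => rfl)

theorem exists_normal_dual [DecidableEq H] : ∃ θ c : L,
    (∀ g : H, ∑ h : H, (h • θ) * ((g * h) • c) = if g = 1 then 1 else 0) ∧
    (∀ h : H, ∑ g : H, (g • θ) * ((g * h) • c) = if h = 1 then 1 else 0) := by
  classical
  obtain ⟨θ, hθ⟩ := exists_linearIndependent_algEquiv_apply (FixedPoints.subfield H L) L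
  have hθ' : LinearIndependent (FixedPoints.subfield H L) (fun h : H => h • θ) :=
    hθ.comp (MulSemiringAction.toAlgAut H (FixedPoints.subfield H L) L)
      (FixedPoints.toAlgAut_bijective H L).injective
  obtain ⟨μ₀, hμ₀⟩ := exists_tr_ne_zero (L := L) (H := H)
  let A : Matrix H H L := Matrix.of fun x h => (x * h) • θ
  have hAe : ∀ x h, A x h = (x * h) • θ := fun _ _ => rfl
  have hdet : A.det ≠ 0 := by
    intro h0
    obtain ⟨v, hv, hAv⟩ := Matrix.exists_mulVec_eq_zero_iff.mpr h0
    obtain ⟨h₀, hh₀⟩ : ∃ h₀, v h₀ ≠ 0 := by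
      by_contra hc
      push Not at hc
      exact hv (funext hc)
    have key : ∀ lam : L, ∀ h, ∑ x : H, x • (lam * v h) = 0 := by
      intro lam
      have hrow : ∀ x : H, ∑ h : H, (h • θ) * (x • v h) = 0 := by
        intro x
        have h1 := congrFun hAv x⁻¹
        have h2 := congrArg (fun y => x • y) h1
        simp only [Matrix.mulVec, dotProduct, hAe, Pi.zero_apply, smul_zero, Finset.smul_sum,
          smul_mul', smul_smul, mul_inv_cancel_left] at h2
        exact h2
      have hsum : ∑ h : H, (∑ x : H, x • (lam * v h)) * (h • θ) = 0 := by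
        calc ∑ h : H, (∑ x : H, x • (lam * v h)) * (h • θ)
            = ∑ h : H, ∑ x : H, (x • lam) * ((h • θ) * (x • v h)) := by
              refine Finset.sum_congr rfl fun h _ => ?_
              rw [Finset.sum_mul]
              refine Finset.sum_congr rfl fun x _ => ?_
              rw [smul_mul']; ring
          _ = ∑ x : H, ∑ h : H, (x • lam) * ((h • θ) * (x • v h)) := Finset.sum_comm
          _ = ∑ x : H, (x • lam) * ∑ h : H, (h • θ) * (x • v h) := by
              simp only [Finset.mul_sum]
          _ = 0 := by simp [hrow]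
      let g : H → FixedPoints.subfield H L := fun h => ⟨∑ x : H, x • (lam * v h), tr_mem _⟩
      have hg : ∑ h : H, g h • (h • θ) = 0 := by
        rw [← hsum]
        refine Finset.sum_congr rfl fun h _ => ?_
        rfl
      intro h
      have := Fintype.linearIndependent_iff.mp hθ' g hg h
      exact congrArg Subtype.val this
    have := key (μ₀ / v h₀) h₀
    rw [div_mul_cancel₀ _ hh₀] at this
    exact hμ₀ this
  have hA : IsUnit A.det := isUnit_iff_ne_zero.mpr hdet
  set N : Matrix H H L := A⁻¹ with hN
  have hAN : A * N = 1 := Matrix.mul_nonsing_inv A hA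
  have hNA : N * A = 1 := Matrix.nonsing_inv_mul A hA
  have hANe : ∀ x y : H, ∑ h : H, ((x * h) • θ) * N h y = if x = y then 1 else 0 := by
    intro x y
    have := congrFun (congrFun hAN x) y
    rw [Matrix.mul_apply, Matrix.one_apply] at this
    simpa only [hAe] using this
  have s1 : ∀ z h y, N h y = z • N h (z⁻¹ * y) := by
    intro z
    have : A⁻¹ = (Matrix.of fun h y => z • N h (z⁻¹ * y) : Matrix H H L) := by
      apply Matrix.inv_eq_right_inv
      ext x y
      have h1 := hANe (z⁻¹ * x) (z⁻¹ * y)
      have h2 := congrArg (fun t => z • t) h1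
      simp only [Finset.smul_sum, smul_mul', smul_smul, mul_inv_cancel_left, mul_assoc,
        mul_right_inj, smul_ite, smul_one, smul_zero] at h2
      rw [Matrix.mul_apply, Matrix.one_apply]
      simp only [hAe, Matrix.of_apply]
      rw [← h2]
    intro h y
    exact congrFun (congrFun this h) y
  have s2 : ∀ z h y, N (z * h) (y * z⁻¹) = N h y := by
    intro z
    have : A⁻¹ = (Matrix.of fun h y => N (z * h) (y * z⁻¹) : Matrix H H L) := by
      apply Matrix.inv_eq_right_inv
      ext x y
      have h1 := hANe (x * z⁻¹) (y * z⁻¹)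
      simp only [mul_left_inj] at h1
      rw [Matrix.mul_apply, Matrix.one_apply]
      simp only [hAe, Matrix.of_apply]
      rw [← h1]
      refine Fintype.sum_equiv (Equiv.mulLeft z) _ _ (fun h => ?_)
      simp [mul_assoc]
    intro h y
    exact (congrFun (congrFun this h) y).symm
  obtain ⟨c, hc⟩ : ∃ c, c = N 1 1 := ⟨_, rfl⟩
  have hNc : ∀ h y, N h y = (y * h) • c := by
    intro h y
    rw [hc]
    have e1 : N h y = y • N h 1 := by
      have := s1 y h y
      rwa [inv_mul_cancel] at this
    have e2 : N h 1 = N 1 h := by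
      have := s2 h 1 h
      rwa [mul_one, mul_inv_cancel] at this
    have e3 : N 1 h = h • N 1 1 := by
      have := s1 h 1 h
      rwa [inv_mul_cancel] at this
    rw [e1, e2, e3, smul_smul]
  refine ⟨θ, c, ?_, ?_⟩
  · intro g
    have := hANe 1 g
    simp only [one_mul, hNc] at this
    rw [this]
    by_cases hg : g = 1
    · simp [hg]
    · simp [hg, Ne.symm hg]
  · intro h
    have := congrFun (congrFun hNA h) 1
    rw [Matrix.mul_apply, Matrix.one_apply] at this
    simp only [hAe, mul_one, hNc] at this
    rw [← this]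
    refine Finset.sum_congr rfl fun x _ => ?_
    ring

end NB

/-- Galois-descent freeness criterion. -/
theorem gal {L : Type*} [Field L] {H : Type*} [Group H] [Fintype H] [DecidableEq H]
    [MulSemiringAction H L] [FaithfulSMul H L] {R : Type*} [Ring R] (ι : L →+* R) (ρ : H →* R)
    (hι : ∀ h l, ρ h * ι l = ι (h • l) * ρ h) :
    ∃ π : R, (∀ h, π * ρ h * π = if h = 1 then π else 0) ∧ ∑ h : H, ρ h * π * ρ h⁻¹ = 1 := by
  obtain ⟨θ, c, h1, h2⟩ := exists_normal_dual (L := L) (H := H)
  set T : R := ∑ g : H, ρ g with hT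
  have f1 : ∀ h, T * ρ h = T := by
    intro h
    rw [hT, Finset.sum_mul]
    simp only [← map_mul]
    exact Fintype.sum_equiv (Equiv.mulRight h) _ _ (fun x => rfl)
  have f1' : ∀ h, ρ h * T = T := by
    intro h
    rw [hT, Finset.mul_sum]
    simp only [← map_mul]
    exact Fintype.sum_equiv (Equiv.mulLeft h) _ _ (fun x => rfl)
  have f2 : ∀ h l, ι l * ρ h = ρ h * ι (h⁻¹ • l) := by
    intro h l
    rw [hι, smul_inv_smul]
  have f3 : ∀ l, T * ι l * T = ι (∑ g : H, g • l) * T := by
    intro l
    calc T * ι l * T = ∑ g : H, ρ g * ι l * T := by rw [hT, Finset.sum_mul, Finset.sum_mul]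
      _ = ∑ g : H, ι (g • l) * T := by
          refine Finset.sum_congr rfl fun g _ => ?_
          rw [hι, mul_assoc, f1']
      _ = ι (∑ g : H, g • l) * T := by rw [map_sum, Finset.sum_mul]
  refine ⟨ι θ * T * ι c, ?_, ?_⟩
  · intro h
    have e1 : ι θ * T * ι c * ρ h * (ι θ * T * ι c)
        = ι θ * (T * ι ((h⁻¹ • c) * θ) * T) * ι c := by
      rw [map_mul]
      have : ι c * ρ h = ρ h * ι (h⁻¹ • c) := f2 h c
      calc ι θ * T * ι c * ρ h * (ι θ * T * ι c)
          = ι θ * T * (ι c * ρ h) * (ι θ * T * ι c) := by simp only [mul_assoc]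
        _ = ι θ * (T * ρ h) * ι (h⁻¹ • c) * (ι θ * T * ι c) := by rw [this]; simp only [mul_assoc]
        _ = ι θ * (T * (ι (h⁻¹ • c) * ι θ) * T) * ι c := by rw [f1]; simp only [mul_assoc]
    have e2 : ∑ g : H, g • ((h⁻¹ • c) * θ) = if h = 1 then 1 else 0 := by
      have := h2 h⁻¹
      have e : ∑ g : H, g • ((h⁻¹ • c) * θ) = ∑ g : H, (g • θ) * ((g * h⁻¹) • c) := by
        refine Finset.sum_congr rfl fun g _ => ?_
        rw [smul_mul', smul_smul, mul_comm]
      rw [e, this]
      by_cases hh : h = 1
      · simp [hh]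
      · simp [hh]
    rw [e1, f3, e2]
    by_cases hh : h = 1
    · simp [hh]
    · simp [hh]
  · have e : ∀ h : H, ρ h * (ι θ * T * ι c) * ρ h⁻¹
        = ∑ g : H, ι ((h • θ) * ((g * h) • c)) * ρ g := by
      intro h
      have a1 : ι c * ρ h⁻¹ = ρ h⁻¹ * ι (h • c) := by
        have := f2 h⁻¹ c
        rwa [inv_inv] at this
      calc ρ h * (ι θ * T * ι c) * ρ h⁻¹
          = (ρ h * ι θ) * T * (ι c * ρ h⁻¹) := by simp only [mul_assoc]
        _ = ι (h • θ) * (ρ h * T * ρ h⁻¹) * ι (h • c) := by
            rw [hι, a1]; simp only [mul_assoc]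
        _ = ι (h • θ) * T * ι (h • c) := by rw [f1', f1]
        _ = ∑ g : H, ι (h • θ) * (ρ g * ι (h • c)) := by
            rw [hT, Finset.mul_sum, Finset.sum_mul]
            simp only [mul_assoc]
        _ = ∑ g : H, ι ((h • θ) * ((g * h) • c)) * ρ g := by
            refine Finset.sum_congr rfl fun g _ => ?_
            rw [hι, smul_smul, map_mul, mul_assoc]
    simp only [e]
    rw [Finset.sum_comm]
    simp only [← Finset.sum_mul, ← map_sum, h1]
    simp

end Cfsg.Agent.Lib.Helper47.FrobGal
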