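import Mathlib
import Cfsg.Agent.Lib.Helper47.FrobGal

/-!
# Freeness of modules for a fixed-point-free group of operators

Tools for: if a nilpotent group `F` of order invertible in `k` acts on a finite-dimensional
`k`-space `V` without nonzero fixed vectors, and `H` acts on `V` compatibly with a
fixed-point-free action on `F`, then `V` is a free `k[H]`-module.  Freeness is expressed by an
endomorphism `π` with `π ρ(h) π = δ_{h,1} π` and `∑ ρ(h) π ρ(h)⁻¹ = 1` (`FreeP`).
-/

namespace Cfsg.Agent.Lib.Helper47.FrobFree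

open Finset

open scoped commutatorElement

universe u v w

section Basic

variable {k : Type w} [Field k] {V : Type v} [AddCommGroup V] [Module k V]

/-- `π` is a projection with `π ρ(h) π = 0` for `h ≠ 1` whose `H`-conjugates sum to `E`. -/
def FreeP {H : Type*} [Group H] [Fintype H] (ρ : H →* Module.End k V)
    (E π : Module.End k V) : Prop :=
  E * π = π ∧ π * E = π ∧ π * π = π ∧ (∀ h, h ≠ 1 → π * ρ h * π = 0) ∧
    ∑ h : H, ρ h * π * ρ h⁻¹ = E

/-- Restriction of a monoid of operators to an invariant subspace. -/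
def resHom {M : Type*} [Monoid M] (ρ : M →* Module.End k V) (U : Submodule k V)
    (hU : ∀ m, ∀ x ∈ U, ρ m x ∈ U) : M →* Module.End k U where
  toFun m := (ρ m).restrict (hU m)
  map_one' := by ext x; simp
  map_mul' a b := by ext x; simp

theorem resHom_apply {M : Type*} [Monoid M] (ρ : M →* Module.End k V) (U : Submodule k V)
    (hU : ∀ m, ∀ x ∈ U, ρ m x ∈ U) (m : M) (x : U) :
    ((resHom ρ U hU m x : U) : V) = ρ m x := rfl

theorem transport {H : Type*} [Group H] [Fintype H] (ρ : H →* Module.End k V)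
    (e : Module.End k V) (he : e * e = e) (heH : ∀ g, e * ρ g = ρ g * e)
    (ρ' : H →* Module.End k (LinearMap.range e))
    (hρ' : ∀ g (x : LinearMap.range e), ((ρ' g x : LinearMap.range e) : V) = ρ g x)
    (π' : Module.End k (LinearMap.range e)) (hπ' : FreeP ρ' 1 π') : ∃ π, FreeP ρ e π := by
  obtain ⟨-, -, hpp, hort, hsum⟩ := hπ'
  have t1 : ∀ x : LinearMap.range e, e (x : V) = x := by
    rintro ⟨x, y, rfl⟩
    exact congrArg (fun t => t y) he
  let ê : V →ₗ[k] LinearMap.range e := e.rangeRestrict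
  have hê : ∀ v, ((ê v : LinearMap.range e) : V) = e v := fun v => rfl
  have t2 : ∀ x : LinearMap.range e, ê (x : V) = x := fun x => Subtype.ext (t1 x)
  have t3 : ∀ g v, ê (ρ g v) = ρ' g (ê v) := by
    intro g v
    apply Subtype.ext
    rw [hρ', hê, hê]
    exact congrArg (fun t => t v) (heH g)
  let π : Module.End k V := (LinearMap.range e).subtype ∘ₗ π' ∘ₗ ê
  have hπ : ∀ v, π v = ((π' (ê v) : LinearMap.range e) : V) := fun v => rfl
  refine ⟨π, ?_, ?_, ?_, ?_, ?_⟩
  · ext v
    rw [Module.End.mul_apply, hπ, t1]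
  · ext v
    rw [Module.End.mul_apply, hπ, hπ]
    congr 2
    apply Subtype.ext
    rw [hê, hê]
    exact congrArg (fun t => t v) he
  · ext v
    rw [Module.End.mul_apply, hπ, hπ, t2]
    have := congrArg (fun t => t (ê v)) hpp
    exact congrArg Subtype.val this
  · intro h hh
    ext v
    rw [Module.End.mul_apply, Module.End.mul_apply, hπ, hπ, ← hρ', t2]
    have := congrArg (fun t => t (ê v)) (hort h hh)
    exact congrArg Subtype.val this
  · ext v
    have key : ∀ g, (ρ g * π * ρ g⁻¹) v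
        = (((ρ' g * π' * ρ' g⁻¹) (ê v) : LinearMap.range e) : V) := by
      intro g
      rw [Module.End.mul_apply, Module.End.mul_apply, hπ, t3, ← hρ']
      rfl
    rw [LinearMap.sum_apply, Finset.sum_congr rfl (fun g _ => key g), ← Submodule.coe_sum,
      ← LinearMap.sum_apply, hsum]
    rfl

theorem restrict_step {F H : Type*} [Group F] [Group H] [Fintype H] [FiniteDimensional k V]
    (ρF : F →* Module.End k V) (ρ : H →* Module.End k V) (φ : H → F →* F)
    (hc : ∀ g f, ρ g * ρF f = ρF (φ g f) * ρ g) (h0 : ∀ v, (∀ f, ρF f v = v) → v = 0)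
    (e : Module.End k V) (he : e * e = e) (he1 : e ≠ 1) (heF : ∀ f, e * ρF f = ρF f * e)
    (heH : ∀ g, e * ρ g = ρ g * e)
    (ih : ∀ (V' : Type v) [AddCommGroup V'] [Module k V'] [FiniteDimensional k V']
      (ρF' : F →* Module.End k V') (ρ' : H →* Module.End k V'),
      (∀ g f, ρ' g * ρF' f = ρF' (φ g f) * ρ' g) → (∀ v, (∀ f, ρF' f v = v) → v = 0) →
      Module.finrank k V' < Module.finrank k V → ∃ π, FreeP ρ' 1 π) :
    ∃ π, FreeP ρ e π := by
  have invF : ∀ f, ∀ x ∈ LinearMap.range e, ρF f x ∈ LinearMap.range e := by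
    rintro f x ⟨y, rfl⟩
    exact ⟨ρF f y, congrArg (fun t => t y) (heF f)⟩
  have invH : ∀ g, ∀ x ∈ LinearMap.range e, ρ g x ∈ LinearMap.range e := by
    rintro g x ⟨y, rfl⟩
    exact ⟨ρ g y, congrArg (fun t => t y) (heH g)⟩
  have hlt : Module.finrank k (LinearMap.range e) < Module.finrank k V := by
    apply Submodule.finrank_lt
    intro htop
    apply he1
    ext x
    obtain ⟨y, rfl⟩ : x ∈ LinearMap.range e := by rw [htop]; trivial
    exact congrArg (fun t => t y) he
  obtain ⟨π', hπ'⟩ := ih (LinearMap.range e) (resHom ρF _ invF) (resHom ρ _ invH) (by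
      intro g f
      ext x
      exact congrArg (fun t => t x.1) (hc g f)) (by
      intro v hv
      apply Subtype.ext
      apply h0
      intro f
      exact congrArg Subtype.val (hv f)) hlt
  exact transport ρ e he heH (resHom ρ _ invH) (fun g x => rfl) π' hπ'

theorem maschke {F : Type*} [Group F] (ρF : F →* Module.End k V) (Z : Subgroup F) [Finite Z]
    (hchar : ((Nat.card Z : ℕ) : k) ≠ 0) (a : Module.End k V)
    (ha : ∀ b : Module.End k V, (∀ z ∈ Z, b * ρF z = ρF z * b) → b * a = a * b)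
    (haZ : ∀ z ∈ Z, a * ρF z = ρF z * a) (y : V) (hy : a (a y) = 0) : a y = 0 := by
  classical
  have := Fintype.ofFinite Z
  have hinv : ∀ f : F, ρF f⁻¹ * ρF f = 1 := by
    intro f
    rw [← map_mul, inv_mul_cancel, map_one]
  have hinv' : ∀ f : F, ρF f * ρF f⁻¹ = 1 := by
    intro f
    rw [← map_mul, mul_inv_cancel, map_one]
  obtain ⟨g, hg⟩ := LinearMap.exists_leftInverse_of_injective (LinearMap.ker a).subtype
    (Submodule.ker_subtype _)
  let π₀ : Module.End k V := (LinearMap.ker a).subtype ∘ₗ g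
  have hπ₀mem : ∀ x, a (π₀ x) = 0 := fun x => LinearMap.mem_ker.1 (g x).2
  have hπ₀fix : ∀ x, a x = 0 → π₀ x = x := by
    intro x hx
    have := congrArg (fun t => t ⟨x, LinearMap.mem_ker.2 hx⟩) hg
    exact congrArg Subtype.val this
  let s : Module.End k V := ∑ z : Z, ρF z * π₀ * ρF (z⁻¹ : Z)
  have hs : ∀ w ∈ Z, s * ρF w = ρF w * s := by
    intro w hw
    simp only [s, Finset.sum_mul, Finset.mul_sum]
    refine (Fintype.sum_equiv (Equiv.mulLeft (⟨w, hw⟩ : Z))
      (fun z : Z => ρF w * (ρF z * π₀ * ρF (z⁻¹ : Z)))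
      (fun z : Z => ρF z * π₀ * ρF (z⁻¹ : Z) * ρF w) (fun z => ?_)).symm
    simp only [Equiv.coe_mulLeft, Subgroup.coe_mul, mul_inv_rev, Subgroup.coe_inv, map_mul,
      mul_assoc, hinv, mul_one]
  have has : s * a = a * s := ha s hs
  have h1 : s (a y) = (Nat.card Z : k) • a y := by
    simp only [s, LinearMap.sum_apply, Module.End.mul_apply]
    have : ∀ z : Z, ρF z (π₀ (ρF (z⁻¹ : Z) (a y))) = a y := by
      intro z
      have hz : a (ρF (z⁻¹ : Z) (a y)) = 0 := by
        have := congrArg (fun t => t (a y)) (haZ _ (z⁻¹).2)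
        simp only [Module.End.mul_apply] at this
        rw [this, hy, map_zero]
      rw [hπ₀fix _ hz, ← Module.End.mul_apply, Subgroup.coe_inv, hinv']
      rfl
    rw [Finset.sum_congr rfl (fun z _ => this z)]
    simp [Nat.card_eq_fintype_card, Nat.cast_smul_eq_nsmul]
  have h2 : s (a y) = 0 := by
    have : s (a y) = a (s y) := congrArg (fun t => t y) has
    rw [this]
    simp only [s, LinearMap.sum_apply, Module.End.mul_apply, map_sum]
    refine Finset.sum_eq_zero fun z _ => ?_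
    have := congrArg (fun t => t (π₀ (ρF (z⁻¹ : Z) y))) (haZ _ z.2)
    simp only [Module.End.mul_apply] at this
    rw [this, hπ₀mem, map_zero]
  rw [h1] at h2
  exact (smul_eq_zero.mp h2).resolve_left hchar

theorem isCompl_ker_range [FiniteDimensional k V] (a : Module.End k V)
    (hd : ∀ y, a (a y) = 0 → a y = 0) : IsCompl (LinearMap.ker a) (LinearMap.range a) := by
  have hdis : Disjoint (LinearMap.ker a) (LinearMap.range a) := by
    rw [Submodule.disjoint_def]
    rintro x hx ⟨y, rfl⟩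
    exact hd y (LinearMap.mem_ker.1 hx)
  refine ⟨hdis, ?_⟩
  rw [codisjoint_iff]
  apply Submodule.eq_top_of_finrank_eq
  have h1 := Submodule.finrank_sup_add_finrank_inf_eq (LinearMap.ker a) (LinearMap.range a)
  rw [disjoint_iff.mp hdis, finrank_bot, add_zero] at h1
  rw [h1, add_comm, LinearMap.finrank_range_add_finrank_ker]

theorem fitting [FiniteDimensional k V] (a : Module.End k V)
    (hd : ∀ y, a (a y) = 0 → a y = 0) :
    ∃ e : Module.End k V, e * e = e ∧ (∀ x, a (e x) = 0) ∧ (∀ x, a x = 0 → e x = x) ∧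
      (∀ b : Module.End k V, b * a = a * b → b * e = e * b) := by
  have hc := isCompl_ker_range a hd
  refine ⟨(LinearMap.ker a).projection (LinearMap.range a) hc, ?_, ?_, ?_, ?_⟩
  · ext x
    rw [Module.End.mul_apply]
    exact Submodule.projection_apply_of_mem_left hc (Submodule.projection_apply_mem hc x)
  · intro x
    exact LinearMap.mem_ker.1 (Submodule.projection_apply_mem hc x)
  · intro x hx
    exact Submodule.projection_apply_of_mem_left hc (LinearMap.mem_ker.2 hx)
  · intro b hb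
    ext x
    obtain ⟨n, hn, r, hr, rfl⟩ : ∃ n ∈ LinearMap.ker a, ∃ r ∈ LinearMap.range a, n + r = x := by
      have : x ∈ LinearMap.ker a ⊔ LinearMap.range a := by
        rw [hc.sup_eq_top]; trivial
      exact Submodule.mem_sup.1 this
    have hbn : b n ∈ LinearMap.ker a := by
      rw [LinearMap.mem_ker]
      have := congrArg (fun t => t n) hb
      simp only [Module.End.mul_apply] at this
      rw [← this, LinearMap.mem_ker.1 hn, map_zero]
    have hbr : b r ∈ LinearMap.range a := by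
      obtain ⟨y, rfl⟩ := hr
      exact ⟨b y, (congrArg (fun t => t y) hb).symm⟩
    simp only [Module.End.mul_apply, map_add]
    rw [Submodule.projection_apply_of_mem_left hc hn,
      Submodule.projection_apply_of_mem_right hc hr,
      Submodule.projection_apply_of_mem_left hc hbn,
      Submodule.projection_apply_of_mem_right hc hbr, map_zero]

theorem exists_moved {F : Type*} [Group F] (ρF : F →* Module.End k V) (Z : Subgroup F)
    [Finite Z] (ψ : F →* F) (hψ : ∀ f, ψ f = f → f = 1) (hZ : ∀ z ∈ Z, ψ z ∈ Z)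
    (hne : ∃ z ∈ Z, ρF z ≠ 1) : ∃ z ∈ Z, ρF (ψ z) ≠ ρF z := by
  by_contra hcon
  push Not at hcon
  obtain ⟨z₀, hz₀, hz₀'⟩ := hne
  let m : Z → Z := fun z => ⟨(z : F)⁻¹ * ψ z, Z.mul_mem (Z.inv_mem z.2) (hZ _ z.2)⟩
  have hm : Function.Injective m := by
    intro z w hzw
    have h1 : (z : F)⁻¹ * ψ z = (w : F)⁻¹ * ψ w := congrArg Subtype.val hzw
    have h2 : ψ ((w : F) * (z : F)⁻¹) = (w : F) * (z : F)⁻¹ := by
      rw [map_mul, map_inv]
      have : ψ (w : F) = (w : F) * ((z : F)⁻¹ * ψ z) := by rw [h1]; group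
      rw [this]; group
    have h3 := hψ _ h2
    rw [mul_inv_eq_one] at h3
    exact Subtype.ext h3.symm
  obtain ⟨z, hz⟩ := (Finite.injective_iff_surjective.mp hm) ⟨z₀, hz₀⟩
  apply hz₀'
  have : (z : F)⁻¹ * ψ z = z₀ := congrArg Subtype.val hz
  rw [← this, map_mul, hcon z z.2, ← map_mul, inv_mul_cancel, map_one]

theorem extend {H : Type*} [Group H] [Fintype H] (ρ : H →* Module.End k V) (H₁ : Subgroup H)
    [Fintype H₁] (e π₁ : Module.End k V)
    (hin : ∀ h ∈ H₁, ρ h * e = e * ρ h) (hout : ∀ h, h ∉ H₁ → e * ρ h * e = 0)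
    (hπ₁ : FreeP (ρ.comp H₁.subtype) e π₁) :
    ∃ ε : Module.End k V, FreeP ρ ε π₁ ∧ ε * ε = ε ∧ (∀ g, ρ g * ε = ε * ρ g) ∧ e * ε = e ∧
      ε * e = e ∧ (∀ b : Module.End k V,
        (∀ h, b * (ρ h * e * ρ h⁻¹) = (ρ h * e * ρ h⁻¹) * b) → b * ε = ε * b) := by
  classical
  obtain ⟨hl, hr, hpp, hort, hsum⟩ := hπ₁
  have hinv : ∀ h : H, ρ h⁻¹ * ρ h = 1 := fun h => by rw [← map_mul, inv_mul_cancel, map_one]
  have hinv' : ∀ h : H, ρ h * ρ h⁻¹ = 1 := fun h => by rw [← map_mul, mul_inv_cancel, map_one]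
  have ci1 : ∀ (h : H) (x : Module.End k V), ρ h⁻¹ * (ρ h * x) = x := fun h x => by
    rw [← mul_assoc, hinv, one_mul]
  have ci2 : ∀ (h : H) (x : Module.End k V), ρ h * (ρ h⁻¹ * x) = x := fun h x => by
    rw [← mul_assoc, hinv', one_mul]
  have hort' : ∀ h, h ≠ 1 → π₁ * ρ h * π₁ = 0 := by
    intro h hh
    by_cases hH : h ∈ H₁
    · exact hort ⟨h, hH⟩ (fun hc => hh (congrArg Subtype.val hc))
    · calc π₁ * ρ h * π₁ = (π₁ * e) * ρ h * (e * π₁) := by rw [hr, hl]
        _ = π₁ * (e * ρ h * e) * π₁ := by simp only [mul_assoc]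
        _ = 0 := by rw [hout h hH, mul_zero, zero_mul]
  set ε : Module.End k V := ∑ h : H, ρ h * π₁ * ρ h⁻¹ with hε
  have horth : ∀ h g : H, (ρ h * π₁ * ρ h⁻¹) * (ρ g * π₁ * ρ g⁻¹)
      = if g = h then ρ h * π₁ * ρ h⁻¹ else 0 := by
    intro h g
    have : (ρ h * π₁ * ρ h⁻¹) * (ρ g * π₁ * ρ g⁻¹)
        = ρ h * (π₁ * ρ (h⁻¹ * g) * π₁) * ρ g⁻¹ := by
      rw [map_mul]; simp only [mul_assoc]
    rw [this]
    by_cases hgh : g = h
    · subst hgh
      rw [if_pos rfl, inv_mul_cancel, map_one, mul_one, hpp]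
    · rw [if_neg hgh, hort' _ (fun hc => hgh (by rw [inv_mul_eq_one] at hc; exact hc.symm)),
        mul_zero, zero_mul]
  have hεε : ε * ε = ε := by
    rw [hε, Finset.sum_mul]
    refine Finset.sum_congr rfl fun h _ => ?_
    rw [Finset.mul_sum]
    simp only [horth]
    simp
  have hεπ : ε * π₁ = π₁ := by
    rw [hε, Finset.sum_mul, Finset.sum_eq_single 1]
    · rw [inv_one, map_one, one_mul, mul_one, hpp]
    · intro h _ hh
      rw [mul_assoc, mul_assoc, ← mul_assoc π₁, hort' h⁻¹ (inv_ne_one.mpr hh), mul_zero]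
    · intro h; exact absurd (Finset.mem_univ _) h
  have hπε : π₁ * ε = π₁ := by
    rw [hε, Finset.mul_sum, Finset.sum_eq_single 1]
    · rw [inv_one, map_one, one_mul, mul_one, hpp]
    · intro h _ hh
      rw [← mul_assoc, ← mul_assoc, hort' h hh, zero_mul]
    · intro h; exact absurd (Finset.mem_univ _) h
  have hcomm : ∀ g, ρ g * ε = ε * ρ g := by
    intro g
    rw [hε, Finset.mul_sum, Finset.sum_mul]
    refine Fintype.sum_equiv (Equiv.mulLeft g) _ _ (fun h => ?_)
    simp only [Equiv.coe_mulLeft, map_mul, mul_inv_rev, mul_assoc, hinv, mul_one]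
  have hfilter : ∑ h : H, (if h ∈ H₁ then ρ h * π₁ * ρ h⁻¹ else 0) = e := by
    rw [← Finset.sum_filter, ← hsum]
    exact Finset.sum_subtype _ (by simp) _
  have heε : e * ε = e := by
    calc e * ε = ∑ h : H, e * (ρ h * π₁ * ρ h⁻¹) := by rw [hε, Finset.mul_sum]
      _ = ∑ h : H, if h ∈ H₁ then ρ h * π₁ * ρ h⁻¹ else 0 := by
          refine Finset.sum_congr rfl fun h _ => ?_
          by_cases hH : h ∈ H₁
          · rw [if_pos hH, ← mul_assoc, ← mul_assoc, ← hin h hH, mul_assoc (ρ h), hl]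
          · rw [if_neg hH]
            have : e * ρ h * π₁ = 0 := by
              calc e * ρ h * π₁ = e * ρ h * (e * π₁) := by rw [hl]
                _ = (e * ρ h * e) * π₁ := by simp only [mul_assoc]
                _ = 0 := by rw [hout h hH, zero_mul]
            rw [← mul_assoc, ← mul_assoc, this, zero_mul]
      _ = e := hfilter
  have hεe : ε * e = e := by
    calc ε * e = ∑ h : H, (ρ h * π₁ * ρ h⁻¹) * e := by rw [hε, Finset.sum_mul]
      _ = ∑ h : H, if h ∈ H₁ then ρ h * π₁ * ρ h⁻¹ else 0 := by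
          refine Finset.sum_congr rfl fun h _ => ?_
          by_cases hH : h ∈ H₁
          · rw [if_pos hH, mul_assoc, hin h⁻¹ (H₁.inv_mem hH), ← mul_assoc, mul_assoc (ρ h), hr]
          · rw [if_neg hH]
            have hH' : h⁻¹ ∉ H₁ := fun hc => hH (by simpa using H₁.inv_mem hc)
            have : π₁ * ρ h⁻¹ * e = 0 := by
              calc π₁ * ρ h⁻¹ * e = (π₁ * e) * ρ h⁻¹ * e := by rw [hr]
                _ = π₁ * (e * ρ h⁻¹ * e) := by simp only [mul_assoc]
                _ = 0 := by rw [hout _ hH', mul_zero]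
            rw [mul_assoc, mul_assoc, ← mul_assoc π₁, this, mul_zero]
      _ = e := hfilter
  refine ⟨ε, ⟨hεπ, hπε, hpp, hort', rfl⟩, hεε, hcomm, heε, hεe, ?_⟩
  intro b hb
  have c1 : ∀ h, (ρ h * e * ρ h⁻¹) * ε = ρ h * e * ρ h⁻¹ := by
    intro h
    rw [mul_assoc, hcomm h⁻¹, ← mul_assoc, mul_assoc (ρ h), heε]
  have c2 : ∀ h, ε * (ρ h * e * ρ h⁻¹) = ρ h * e * ρ h⁻¹ := by
    intro h
    rw [← mul_assoc, ← mul_assoc, ← hcomm h, mul_assoc (ρ h), hεe]
  have p1 : ∀ h, (ρ h * e * ρ h⁻¹) * (ρ h * π₁ * ρ h⁻¹) = ρ h * π₁ * ρ h⁻¹ := by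
    intro h
    simp only [mul_assoc, ci1]
    rw [← mul_assoc e, hl]
  have p2 : ∀ h, (ρ h * π₁ * ρ h⁻¹) * (ρ h * e * ρ h⁻¹) = ρ h * π₁ * ρ h⁻¹ := by
    intro h
    simp only [mul_assoc, ci1]
    rw [← mul_assoc π₁, hr]
  have hbε : b * ε = ∑ h : H, (ρ h * e * ρ h⁻¹) * (b * (ρ h * π₁ * ρ h⁻¹)) := by
    rw [hε, Finset.mul_sum]
    refine Finset.sum_congr rfl fun h _ => ?_
    rw [← mul_assoc (ρ h * e * ρ h⁻¹) b, ← hb h, mul_assoc b, p1 h]
  have hεb : ε * b = ∑ h : H, (ρ h * π₁ * ρ h⁻¹) * b * (ρ h * e * ρ h⁻¹) := by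
    rw [hε, Finset.sum_mul]
    refine Finset.sum_congr rfl fun h _ => ?_
    rw [mul_assoc _ b, hb h, ← mul_assoc, p2 h]
  have d1 : ε * (b * ε) = b * ε := by
    rw [hbε, Finset.mul_sum]
    refine Finset.sum_congr rfl fun h _ => ?_
    rw [← mul_assoc, c2 h]
  have d2 : (ε * b) * ε = ε * b := by
    rw [hεb, Finset.sum_mul]
    refine Finset.sum_congr rfl fun h _ => ?_
    rw [mul_assoc, c1 h]
  calc b * ε = ε * (b * ε) := d1.symm
    _ = (ε * b) * ε := (mul_assoc _ _ _).symm
    _ = ε * b := d2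

theorem combine {H : Type*} [Group H] [Fintype H] (ρ : H →* Module.End k V)
    (ε π₁ π₂ : Module.End k V) (hεε : ε * ε = ε) (hcomm : ∀ g, ρ g * ε = ε * ρ g)
    (h1 : FreeP ρ ε π₁) (h2 : FreeP ρ (1 - ε) π₂) : FreeP ρ 1 (π₁ + π₂) := by
  obtain ⟨l1, r1, p1, o1, s1⟩ := h1
  obtain ⟨l2, r2, p2, o2, s2⟩ := h2
  have z1 : ε * (1 - ε) = 0 := by rw [mul_sub, mul_one, hεε, sub_self]
  have z2 : (1 - ε) * ε = 0 := by rw [sub_mul, one_mul, hεε, sub_self]
  have cross1 : ∀ h, π₁ * ρ h * π₂ = 0 := by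
    intro h
    have : ε * ρ h * (1 - ε) = 0 := by rw [← hcomm h, mul_assoc, z1, mul_zero]
    calc π₁ * ρ h * π₂ = (π₁ * ε) * ρ h * ((1 - ε) * π₂) := by rw [r1, l2]
      _ = π₁ * (ε * ρ h * (1 - ε)) * π₂ := by simp only [mul_assoc]
      _ = 0 := by rw [this, mul_zero, zero_mul]
  have cross2 : ∀ h, π₂ * ρ h * π₁ = 0 := by
    intro h
    have : (1 - ε) * ρ h * ε = 0 := by rw [mul_assoc, hcomm h, ← mul_assoc, z2, zero_mul]
    calc π₂ * ρ h * π₁ = (π₂ * (1 - ε)) * ρ h * (ε * π₁) := by rw [r2, l1]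
      _ = π₂ * ((1 - ε) * ρ h * ε) * π₁ := by simp only [mul_assoc]
      _ = 0 := by rw [this, mul_zero, zero_mul]
  refine ⟨one_mul _, mul_one _, ?_, ?_, ?_⟩
  · have c1 := cross1 1
    have c2 := cross2 1
    rw [map_one, mul_one] at c1 c2
    rw [add_mul, mul_add, mul_add, p1, p2, c1, c2, add_zero, zero_add]
  · intro h hh
    simp only [add_mul, mul_add, o1 h hh, o2 h hh, cross1, cross2, add_zero]
  · simp only [mul_add, add_mul, Finset.sum_add_distrib, s1, s2]
    abel

end Basic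

/-- Main theorem: freeness in the `FreeP` form. -/
theorem main {k : Type w} [Field k] {F : Type*} [Group F] [Finite F]
    (hnil : Group.IsNilpotent F) (hchar : ((Nat.card F : ℕ) : k) ≠ 0) :
    ∀ (n : ℕ) (H : Type u) [Group H] [Fintype H] (φ : H → F →* F)
      (_ : ∀ h, h ≠ 1 → ∀ f, φ h f = f → f = 1)
      (V : Type v) [AddCommGroup V] [Module k V] [FiniteDimensional k V]
      (ρF : F →* Module.End k V) (ρH : H →* Module.End k V)
      (_ : ∀ h f, ρH h * ρF f = ρF (φ h f) * ρH h)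
      (_ : ∀ v : V, (∀ f, ρF f v = v) → v = 0),
      Module.finrank k V = n → ∃ π, FreeP ρH 1 π := by
  intro n
  induction n using Nat.strong_induction_on with
  | _ n ih =>
  intro H _ _ φ hφ V _ _ _ ρF ρH hc h0 hn
  classical
  by_cases hV : Subsingleton V
  · refine ⟨0, ?_, ?_, ?_, ?_, ?_⟩
    · ext v; exact Subsingleton.elim _ _
    · ext v; exact Subsingleton.elim _ _
    · ext v; exact Subsingleton.elim _ _
    · intro h _; ext v; exact Subsingleton.elim _ _
    · ext v; exact Subsingleton.elim _ _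
  rw [not_subsingleton_iff_nontrivial] at hV
  -- choice of `Z`
  have hP : ∃ i, ∀ z ∈ Subgroup.lowerCentralSeries (⊤ : Subgroup F) i, ρF z = 1 := by
    obtain ⟨m, hm⟩ := Subgroup.nilpotent_iff_lowerCentralSeries.mp hnil
    refine ⟨m, fun z hz => ?_⟩
    rw [hm, Subgroup.mem_bot] at hz
    rw [hz, map_one]
  have hP0 : ¬ ∀ z ∈ Subgroup.lowerCentralSeries (⊤ : Subgroup F) 0, ρF z = 1 := by
    intro hall
    obtain ⟨v, hv⟩ := exists_ne (0 : V)
    exact hv (h0 v fun f => by rw [hall f (by simp)]; rfl)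
  obtain ⟨c, hcfind⟩ : ∃ c, Nat.find hP = c + 1 := by
    rcases Nat.exists_eq_succ_of_ne_zero (n := Nat.find hP) (by
      intro h0'
      have := Nat.find_spec hP
      rw [h0'] at this
      exact hP0 this) with ⟨c, hc'⟩
    exact ⟨c, hc'⟩
  have hPc : ¬ ∀ z ∈ Subgroup.lowerCentralSeries (⊤ : Subgroup F) c, ρF z = 1 :=
    Nat.find_min hP (by omega)
  have hPc1 : ∀ z ∈ Subgroup.lowerCentralSeries (⊤ : Subgroup F) (c + 1), ρF z = 1 := by
    have := Nat.find_spec hP
    rwa [hcfind] at this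
  obtain ⟨Z, hZdef⟩ : ∃ Z : Subgroup F, Z = Subgroup.lowerCentralSeries (⊤ : Subgroup F) c :=
    ⟨_, rfl⟩
  rw [← hZdef] at hPc
  have hZne : ∃ z ∈ Z, ρF z ≠ 1 := by
    push Not at hPc
    exact hPc
  have hZcomm : ∀ z ∈ Z, ∀ f, ρF z * ρF f = ρF f * ρF z := by
    intro z hz f
    have hmem : ⁅z, f⁆ ∈ Subgroup.lowerCentralSeries (⊤ : Subgroup F) (c + 1) := by
      rw [Subgroup.lowerCentralSeries_succ]
      exact Subgroup.commutator_mem_commutator (hZdef ▸ hz) (Subgroup.mem_top f)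
    have h1 := hPc1 _ hmem
    have h2 : z * f = ⁅z, f⁆ * (f * z) := by rw [commutatorElement_def]; group
    rw [← map_mul, h2, map_mul, h1, one_mul, map_mul]
  have hZφ : ∀ h, ∀ z ∈ Z, φ h z ∈ Z := by
    intro h z hz
    rw [hZdef] at hz ⊢
    have h1 : φ h z ∈ (Subgroup.lowerCentralSeries (⊤ : Subgroup F) c).map (φ h) :=
      Subgroup.mem_map_of_mem _ hz
    rw [Subgroup.map_lowerCentralSeries] at h1
    exact Subgroup.lowerCentralSeries_mono c le_top h1
  have hZchar : ((Nat.card Z : ℕ) : k) ≠ 0 := by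
    intro h
    apply hchar
    obtain ⟨d, hd⟩ := Subgroup.card_subgroup_dvd_card Z
    rw [hd, Nat.cast_mul, h, zero_mul]
  have hinv : ∀ h : H, ρH h⁻¹ * ρH h = 1 := fun h => by
    rw [← map_mul, inv_mul_cancel, map_one]
  have hinv' : ∀ h : H, ρH h * ρH h⁻¹ = 1 := fun h => by
    rw [← map_mul, mul_inv_cancel, map_one]
  have ci1 : ∀ (h : H) (x : Module.End k V), ρH h⁻¹ * (ρH h * x) = x := fun h x => by
    rw [← mul_assoc, hinv, one_mul]
  have ci2 : ∀ (h : H) (x : Module.End k V), ρH h * (ρH h⁻¹ * x) = x := fun h x => by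
    rw [← mul_assoc, hinv', one_mul]
  -- the commutant `S'` of `ρF Z` and its commutant `C`
  obtain ⟨S', hS'def⟩ : ∃ S' : Set (Module.End k V),
      S' = {b | ∀ z ∈ Z, b * ρF z = ρF z * b} := ⟨_, rfl⟩
  have hS'mem : ∀ b, b ∈ S' ↔ ∀ z ∈ Z, b * ρF z = ρF z * b := fun b => by rw [hS'def]; rfl
  obtain ⟨C, hCdef⟩ : ∃ C : Subalgebra k (Module.End k V), C = Subalgebra.centralizer k S' :=
    ⟨_, rfl⟩
  have hCmem : ∀ a, a ∈ C ↔ ∀ b ∈ S', b * a = a * b := fun a => by
    rw [hCdef]; exact Subalgebra.mem_centralizer_iff k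
  have hFS' : ∀ f, ρF f ∈ S' := fun f => (hS'mem _).2 fun z hz => (hZcomm z hz f).symm
  have hCS' : ∀ a ∈ C, a ∈ S' := fun a ha => (hS'mem _).2 fun z hz =>
    ((hCmem a).1 ha (ρF z) (hFS' z)).symm
  have hCcomm : ∀ a ∈ C, ∀ b ∈ C, a * b = b * a := fun a ha b hb =>
    ((hCmem a).1 ha b (hCS' b hb)).symm
  have hCF : ∀ a ∈ C, ∀ f, a * ρF f = ρF f * a := fun a ha f =>
    ((hCmem a).1 ha _ (hFS' f)).symm
  have hS'conj : ∀ h : H, ∀ b ∈ S', ρH h⁻¹ * b * ρH h ∈ S' := by
    intro h b hb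
    rw [hS'mem] at hb ⊢
    intro z hz
    have e1 : ρH h * ρF z = ρF (φ h z) * ρH h := hc h z
    have e2 : ρF z * ρH h⁻¹ = ρH h⁻¹ * ρF (φ h z) := by
      calc ρF z * ρH h⁻¹ = ρH h⁻¹ * (ρH h * ρF z) * ρH h⁻¹ := by
            rw [← mul_assoc, hinv, one_mul]
        _ = ρH h⁻¹ * ρF (φ h z) := by rw [e1, mul_assoc, mul_assoc, hinv', mul_one]
    calc ρH h⁻¹ * b * ρH h * ρF z = ρH h⁻¹ * (b * ρF (φ h z)) * ρH h := by
          rw [mul_assoc, e1]; simp only [mul_assoc]
      _ = ρH h⁻¹ * ρF (φ h z) * b * ρH h := by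
          rw [hb _ (hZφ h z hz)]; simp only [mul_assoc]
      _ = ρF z * (ρH h⁻¹ * b * ρH h) := by rw [← e2]; simp only [mul_assoc]
  have hCconj : ∀ h : H, ∀ a ∈ C, ρH h * a * ρH h⁻¹ ∈ C := by
    intro h a ha
    rw [hCmem]
    intro b hb
    have h1 := (hCmem a).1 ha _ (hS'conj h b hb)
    calc b * (ρH h * a * ρH h⁻¹) = ρH h * ((ρH h⁻¹ * b * ρH h) * a) * ρH h⁻¹ := by
          simp only [mul_assoc, ci2]
      _ = ρH h * (a * (ρH h⁻¹ * b * ρH h)) * ρH h⁻¹ := by rw [h1]
      _ = ρH h * a * ρH h⁻¹ * b := by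
          simp only [mul_assoc, hinv', mul_one]
  have hfit : ∀ a ∈ C, ∃ e ∈ C, e * e = e ∧ (∀ x, a (e x) = 0) ∧ (∀ x, a x = 0 → e x = x) := by
    intro a ha
    have hd : ∀ y, a (a y) = 0 → a y = 0 :=
      maschke ρF Z hZchar a (fun b hb => (hCmem a).1 ha b ((hS'mem b).2 hb))
        (fun z hz => (hS'mem a).1 (hCS' a ha) z hz)
    obtain ⟨e, hee, h1, h2, h3⟩ := fitting a hd
    refine ⟨e, ?_, hee, h1, h2⟩
    rw [hCmem]
    intro b hb
    exact h3 b ((hCmem a).1 ha b hb)
  by_cases hidem : ∃ e ∈ C, e * e = e ∧ e ≠ 0 ∧ e ≠ 1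
  · -- imprimitive case
    obtain ⟨e₀, he₀C, he₀e, he₀0, he₀1⟩ := hidem
    have hex : ∃ r, ∃ e ∈ C, e * e = e ∧ e ≠ 0 ∧ Module.finrank k (LinearMap.range e) = r :=
      ⟨_, e₀, he₀C, he₀e, he₀0, rfl⟩
    obtain ⟨e, heC, hee, he0, her⟩ := Nat.find_spec hex
    have hmin : ∀ e' ∈ C, e' * e' = e' → e' ≠ 0 →
        Module.finrank k (LinearMap.range e) ≤ Module.finrank k (LinearMap.range e') := by
      intro e' h1 h2 h3
      rw [her]
      exact Nat.find_min' hex ⟨e', h1, h2, h3, rfl⟩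
    have hrange_ne : ∀ e' : Module.End k V, e' * e' = e' → e' ≠ 1 → LinearMap.range e' ≠ ⊤ := by
      intro e' h1 h2 htop
      apply h2
      ext x
      obtain ⟨y, rfl⟩ : x ∈ LinearMap.range e' := by rw [htop]; trivial
      exact congrArg (fun t => t y) h1
    have he1 : e ≠ 1 := by
      intro h1
      have h2 := hmin e₀ he₀C he₀e he₀0
      have h3 := Submodule.finrank_lt (hrange_ne e₀ he₀e he₀1)
      have h4 : LinearMap.range (1 : Module.End k V) = ⊤ :=
        LinearMap.range_eq_top.mpr (fun x => ⟨x, rfl⟩)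
      rw [h1, h4, finrank_top] at h2
      omega
    have hkey : ∀ q ∈ C, q * q = q → q * e = q → q = 0 ∨ q = e := by
      intro q hqC hqq hqe
      by_cases hq0 : q = 0
      · exact Or.inl hq0
      right
      have heq' : e * q = q := by rw [hCcomm e heC q hqC, hqe]
      have hle : LinearMap.range q ≤ LinearMap.range e := by
        rintro x ⟨y, rfl⟩
        exact ⟨q y, congrArg (fun t => t y) heq'⟩
      have heq : LinearMap.range q = LinearMap.range e :=
        Submodule.eq_of_le_of_finrank_le hle (hmin q hqC hqq hq0)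
      ext x
      have : e x ∈ LinearMap.range q := by rw [heq]; exact ⟨x, rfl⟩
      obtain ⟨y, hy⟩ := this
      have h1 : q (e x) = e x := by rw [← hy]; exact congrArg (fun t => t y) hqq
      have h2 : q (e x) = q x := congrArg (fun t => t x) hqe
      rw [← h2, h1]
    have hconj : ∀ h : H, e * ρH h * e = 0 ∨ ρH h * e = e * ρH h := by
      intro h
      have hehC : ρH h * e * ρH h⁻¹ ∈ C := hCconj h e heC
      have hehc : (ρH h * e * ρH h⁻¹) * e = e * (ρH h * e * ρH h⁻¹) := hCcomm _ hehC _ heC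
      have heheh : (ρH h * e * ρH h⁻¹) * (ρH h * e * ρH h⁻¹) = ρH h * e * ρH h⁻¹ := by
        simp only [mul_assoc, ci1]
        rw [← mul_assoc e e, hee]
      have hqq : (e * (ρH h * e * ρH h⁻¹)) * (e * (ρH h * e * ρH h⁻¹))
          = e * (ρH h * e * ρH h⁻¹) := by
        calc (e * (ρH h * e * ρH h⁻¹)) * (e * (ρH h * e * ρH h⁻¹))
            = e * ((ρH h * e * ρH h⁻¹) * e) * (ρH h * e * ρH h⁻¹) := by simp only [mul_assoc]
          _ = (e * e) * ((ρH h * e * ρH h⁻¹) * (ρH h * e * ρH h⁻¹)) := by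
              rw [hehc]; simp only [mul_assoc]
          _ = e * (ρH h * e * ρH h⁻¹) := by rw [hee, heheh]
      have hqe : (e * (ρH h * e * ρH h⁻¹)) * e = e * (ρH h * e * ρH h⁻¹) := by
        rw [mul_assoc, hehc, ← mul_assoc, hee]
      rcases hkey _ (C.mul_mem heC hehC) hqq hqe with hq | hq
      · left
        calc e * ρH h * e = (e * (ρH h * e * ρH h⁻¹)) * ρH h := by
              simp only [mul_assoc, hinv, mul_one]
          _ = 0 := by rw [hq, zero_mul]
      · right
        have he'C : ρH h⁻¹ * e * ρH h ∈ C := by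
          have := hCconj h⁻¹ e heC
          rwa [inv_inv] at this
        have he'e' : (ρH h⁻¹ * e * ρH h) * (ρH h⁻¹ * e * ρH h) = ρH h⁻¹ * e * ρH h := by
          simp only [mul_assoc, ci2]
          rw [← mul_assoc e e, hee]
        have he'e : (ρH h⁻¹ * e * ρH h) * e = ρH h⁻¹ * e * ρH h := by
          calc (ρH h⁻¹ * e * ρH h) * e = ρH h⁻¹ * (e * (ρH h * e * ρH h⁻¹)) * ρH h := by
                simp only [mul_assoc, hinv, mul_one]
            _ = ρH h⁻¹ * e * ρH h := by rw [hq]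
        rcases hkey _ he'C he'e' he'e with h0' | h1'
        · exfalso
          apply he0
          calc e = ρH h * (ρH h⁻¹ * e * ρH h) * ρH h⁻¹ := by
                simp only [mul_assoc, ci2, hinv', mul_one]
            _ = 0 := by rw [h0', mul_zero, zero_mul]
        · calc ρH h * e = ρH h * (ρH h⁻¹ * e * ρH h) := by rw [h1']
            _ = e * ρH h := by simp only [mul_assoc, ci2]
    let H₁ : Subgroup H :=
      { carrier := {h | ρH h * e = e * ρH h}
        mul_mem' := by
          intro a b ha hb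
          simp only [Set.mem_ofPred_eq] at ha hb ⊢
          rw [map_mul, mul_assoc, hb, ← mul_assoc, ha, mul_assoc]
        one_mem' := by simp
        inv_mem' := by
          intro a ha
          simp only [Set.mem_ofPred_eq] at ha ⊢
          calc ρH a⁻¹ * e = ρH a⁻¹ * (e * ρH a) * ρH a⁻¹ := by
                simp only [mul_assoc, hinv', mul_one]
            _ = ρH a⁻¹ * (ρH a * e) * ρH a⁻¹ := by rw [ha]
            _ = e * ρH a⁻¹ := by simp only [ci1] }
    have hout : ∀ h, h ∉ H₁ → e * ρH h * e = 0 := fun h hh => (hconj h).resolve_right hh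
    have : Fintype H₁ := Fintype.ofFinite H₁
    obtain ⟨π₁, hπ₁⟩ := restrict_step ρF (ρH.comp H₁.subtype) (fun g => φ g.1)
      (fun g f => hc g.1 f) h0 e hee he1 (hCF e heC)
      (fun g => (g.2 : ρH g * e = e * ρH g).symm) (by
        intro V' _ _ _ ρF' ρ' hc' h0' hlt
        exact ih (Module.finrank k V') (hn ▸ hlt) H₁ (fun g => φ g.1)
          (fun g hg f hf => hφ g.1 (fun h => hg (Subtype.ext h)) f hf) V' ρF' ρ' hc' h0' rfl)
    obtain ⟨ε, hε1, hεε, hεcomm, heε, hεe, hεb⟩ :=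
      extend ρH H₁ e π₁ (fun h hh => hh) hout hπ₁
    by_cases hε : ε = 1
    · exact ⟨π₁, hε ▸ hε1⟩
    · have hε0 : ε ≠ 0 := by
        intro h
        apply he0
        rw [← heε, h, mul_zero]
      have hεF : ∀ f, ρF f * ε = ε * ρF f := by
        intro f
        apply hεb
        intro h
        exact (hCF _ (hCconj h e heC) f).symm
      have h1ε : (1 - ε) * (1 - ε) = 1 - ε := by
        rw [mul_sub, mul_one, sub_mul, one_mul, hεε, sub_self, sub_zero]
      obtain ⟨π₂, hπ₂⟩ := restrict_step ρF ρH φ hc h0 (1 - ε) h1ε (by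
          intro h
          apply hε0
          have : ε = 1 - (1 - ε) := by abel
          rw [this, h, sub_self])
        (fun f => by rw [sub_mul, mul_sub, one_mul, mul_one, hεF f])
        (fun g => by rw [sub_mul, mul_sub, one_mul, mul_one, hεcomm g]) (by
        intro V' _ _ _ ρF' ρ' hc' h0' hlt
        exact ih (Module.finrank k V') (hn ▸ hlt) H φ hφ V' ρF' ρ' hc' h0' rfl)
      exact ⟨π₁ + π₂, combine ρH ε π₁ π₂ hεε hεcomm hε1 hπ₂⟩
  · -- primitive case: `C` is a field
    push Not at hidem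
    have hunit : ∀ a ∈ C, a ≠ 0 → ∃ b ∈ C, a * b = 1 := by
      intro a ha ha0
      obtain ⟨e, heC, hee, h1, h2⟩ := hfit a ha
      have he0 : e = 0 := by
        by_contra he0
        have he1 := hidem e heC hee he0
        apply ha0
        ext x
        have := h1 x
        rw [he1] at this
        exact this
      have hinj : LinearMap.ker a = ⊥ := by
        rw [LinearMap.ker_eq_bot']
        intro x hx
        have := h2 x hx
        rw [he0] at this
        exact this.symm
      obtain ⟨b, hb⟩ := LinearMap.exists_leftInverse_of_injective a hinj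
      have hba : b * a = 1 := hb
      have hab : a * b = 1 := mul_eq_one_comm.mp hba
      refine ⟨b, ?_, hab⟩
      rw [hCmem]
      intro c' hc'
      have hca := (hCmem a).1 ha c' hc'
      calc c' * b = (b * a) * c' * b := by rw [hba, one_mul]
        _ = b * (a * c') * b := by simp only [mul_assoc]
        _ = b * (c' * a) * b := by rw [hca]
        _ = b * c' * (a * b) := by simp only [mul_assoc]
        _ = b * c' := by rw [hab, mul_one]
    have hfield : IsField C :=
      { exists_pair_ne := ⟨0, 1, by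
          intro h01
          obtain ⟨v, hv⟩ := exists_ne (0 : V)
          have := congrArg (fun t : C => (t : Module.End k V) v) h01
          exact hv this.symm⟩
        mul_comm := fun a b => Subtype.ext (hCcomm a a.2 b b.2)
        mul_inv_cancel := fun {a} ha => by
          obtain ⟨b, hbC, hab⟩ := hunit a a.2 (fun h => ha (Subtype.ext h))
          exact ⟨⟨b, hbC⟩, Subtype.ext hab⟩ }
    let _ : Field C := hfield.toField
    let _ : MulSemiringAction H C :=
      { smul := fun h a => ⟨ρH h * a * ρH h⁻¹, hCconj h a a.2⟩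
        one_smul := fun a => Subtype.ext (by
          show ρH 1 * (a : Module.End k V) * ρH 1⁻¹ = a
          simp)
        mul_smul := fun g h a => Subtype.ext (by
          show ρH (g * h) * (a : Module.End k V) * ρH (g * h)⁻¹
            = ρH g * (ρH h * a * ρH h⁻¹) * ρH g⁻¹
          simp [mul_assoc])
        smul_zero := fun h => Subtype.ext (by
          show ρH h * (0 : Module.End k V) * ρH h⁻¹ = 0
          simp)
        smul_add := fun h a b => Subtype.ext (by
          show ρH h * ((a : Module.End k V) + b) * ρH h⁻¹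
            = ρH h * a * ρH h⁻¹ + ρH h * b * ρH h⁻¹
          rw [mul_add, add_mul])
        smul_one := fun h => Subtype.ext (by
          show ρH h * (1 : Module.End k V) * ρH h⁻¹ = 1
          rw [mul_one, hinv'])
        smul_mul := fun h a b => Subtype.ext (by
          show ρH h * ((a : Module.End k V) * b) * ρH h⁻¹
            = (ρH h * a * ρH h⁻¹) * (ρH h * b * ρH h⁻¹)
          simp only [mul_assoc, ci1]) }
    have hsmul : ∀ (h : H) (a : C), ((h • a : C) : Module.End k V) = ρH h * a * ρH h⁻¹ :=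
      fun _ _ => rfl
    have : FaithfulSMul H C := ⟨by
      intro g h hgh
      by_contra hne
      have ht : h⁻¹ * g ≠ 1 := fun h1 => hne (by rw [inv_mul_eq_one] at h1; exact h1.symm)
      obtain ⟨z, hz, hzne⟩ := exists_moved ρF Z (φ (h⁻¹ * g)) (hφ _ ht) (hZφ _) hZne
      apply hzne
      have hzC : ρF z ∈ C := by
        rw [hCmem]
        intro b hb
        exact (hS'mem b).1 hb z hz
      have h1 := congrArg Subtype.val (hgh ⟨ρF z, hzC⟩)
      rw [hsmul, hsmul] at h1
      have h2 : ρF (φ (h⁻¹ * g) z) = ρH (h⁻¹ * g) * ρF z * ρH (h⁻¹ * g)⁻¹ := by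
        rw [hc, mul_assoc, hinv', mul_one]
      rw [h2, map_mul, mul_inv_rev, map_mul, inv_inv]
      calc ρH h⁻¹ * ρH g * ρF z * (ρH g⁻¹ * ρH h)
          = ρH h⁻¹ * (ρH g * ρF z * ρH g⁻¹) * ρH h := by simp only [mul_assoc]
        _ = ρH h⁻¹ * (ρH h * ρF z * ρH h⁻¹) * ρH h := by rw [h1]
        _ = ρF z := by simp only [mul_assoc, ci1, hinv, mul_one]⟩
    let ι : C →+* Module.End k V :=
      { toFun := Subtype.val
        map_one' := rfl
        map_mul' := fun _ _ => rfl
        map_zero' := rfl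
        map_add' := fun _ _ => rfl }
    obtain ⟨π, hπ1, hπ2⟩ := FrobGal.gal ι ρH (by
      intro h a
      show ρH h * (a : Module.End k V) = (ρH h * a * ρH h⁻¹) * ρH h
      rw [mul_assoc, mul_assoc, hinv, mul_one])
    refine ⟨π, one_mul π, mul_one π, ?_, ?_, hπ2⟩
    · have := hπ1 1
      simpa using this
    · intro h hh
      have := hπ1 h
      simpa [hh] using this

end Cfsg.Agent.Lib.Helper47.FrobFree
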