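import Mathlib

/-!
# Imprimitivity of faithful irreducible modules of `p`-groups with a normal `Z_p × Z_p`

Let `G` be a finite `p`-group acting faithfully and irreducibly on a `k`-space `V` on which
multiplication by `p` is injective, and let `E` be a normal subgroup of order `p ^ 2` and
exponent `p`.  Then `V` is the direct sum of the fixed spaces of `p` conjugate subgroups of
order `p` of `E`, and the normalizer `H` of one of them has index `p`.
-/

namespace Cfsg.Agent.Lib.Helper47.Imprim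

open Subgroup

section Fix

variable {k : Type*} [Field k] {V : Type*} [AddCommGroup V] [Module k V]
  {G : Type*} [Group G] (ρ : G →* (V ≃ₗ[k] V))

/-- The fixed space of a subgroup. -/
def fix (C : Subgroup G) : Submodule k V where
  carrier := {v | ∀ c ∈ C, ρ c v = v}
  add_mem' := by
    intro a b ha hb c hc
    simp only [Set.mem_ofPred_eq] at ha hb
    rw [map_add, ha c hc, hb c hc]
  zero_mem' := by intro c _; simp
  smul_mem' := by
    intro r a ha c hc
    simp only [Set.mem_ofPred_eq] at ha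
    rw [map_smul, ha c hc]

theorem mem_fix {C : Subgroup G} {v : V} : v ∈ fix ρ C ↔ ∀ c ∈ C, ρ c v = v := Iff.rfl

/-- The conjugate subgroup `g C g⁻¹`. -/
def cj (g : G) (C : Subgroup G) : Subgroup G := C.map (MulAut.conj g).toMonoidHom

theorem mem_cj {g x : G} {C : Subgroup G} : x ∈ cj g C ↔ g⁻¹ * x * g ∈ C := by
  unfold cj
  constructor
  · rintro ⟨c, hc, rfl⟩
    simpa [MulAut.conj_apply, mul_assoc] using hc
  · intro h
    exact ⟨g⁻¹ * x * g, h, by simp [MulAut.conj_apply, mul_assoc]⟩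

theorem cj_one (C : Subgroup G) : cj 1 C = C := by
  ext x; simp [mem_cj]

theorem cj_mul (g h : G) (C : Subgroup G) : cj (g * h) C = cj g (cj h C) := by
  ext x; simp [mem_cj, mul_assoc]

/-- The conjugation action of a group on its subgroups. -/
@[reducible] def cjAction (G : Type*) [Group G] : MulAction G (Subgroup G) where
  smul := cj
  one_smul C := cj_one C
  mul_smul g h C := cj_mul g h C

theorem card_cj [Finite G] (g : G) (C : Subgroup G) : Nat.card (cj g C) = Nat.card C :=
  Nat.card_congr (C.equivMapOfInjective _ (MulAut.conj g).injective).toEquiv.symm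

theorem map_mem_fix_cj {C : Subgroup G} (g : G) {w : V} (hw : w ∈ fix ρ C) :
    ρ g w ∈ fix ρ (cj g C) := by
  intro x hx
  rw [mem_cj] at hx
  have h1 := hw _ hx
  have h2 : x * g = g * (g⁻¹ * x * g) := by group
  calc ρ x (ρ g w) = ρ (x * g) w := by rw [map_mul]; rfl
    _ = ρ (g * (g⁻¹ * x * g)) w := by rw [h2]
    _ = ρ g (ρ (g⁻¹ * x * g) w) := by rw [map_mul]; rfl
    _ = ρ g w := by rw [h1]

theorem fix_map (g : G) (C : Subgroup G) :
    (fix ρ C).map (ρ g : V →ₗ[k] V) = fix ρ (cj g C) := by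
  ext v
  constructor
  · rintro ⟨w, hw, rfl⟩
    exact map_mem_fix_cj ρ g hw
  · intro hv
    refine ⟨ρ g⁻¹ v, ?_, ?_⟩
    · have := map_mem_fix_cj ρ g⁻¹ hv
      have h2 : cj g⁻¹ (cj g C) = C := by rw [← cj_mul, inv_mul_cancel, cj_one]
      rwa [h2] at this
    · show ρ g (ρ g⁻¹ v) = v
      have : ρ g * ρ g⁻¹ = 1 := by rw [← map_mul, mul_inv_cancel, map_one]
      calc ρ g (ρ g⁻¹ v) = (ρ g * ρ g⁻¹) v := rfl
        _ = v := by rw [this]; rfl

theorem mem_fix_sup {C C' : Subgroup G} {v : V} (h1 : v ∈ fix ρ C) (h2 : v ∈ fix ρ C') :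
    v ∈ fix ρ (C ⊔ C') := by
  let S : Subgroup G :=
    { carrier := {g | ρ g v = v}
      mul_mem' := by
        intro a b ha hb
        simp only [Set.mem_ofPred_eq] at ha hb ⊢
        calc ρ (a * b) v = ρ a (ρ b v) := by rw [map_mul]; rfl
          _ = v := by rw [hb, ha]
      one_mem' := by simp
      inv_mem' := by
        intro a ha
        simp only [Set.mem_ofPred_eq] at ha ⊢
        have : ρ a⁻¹ * ρ a = 1 := by rw [← map_mul, inv_mul_cancel, map_one]
        calc ρ a⁻¹ v = ρ a⁻¹ (ρ a v) := by rw [ha]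
          _ = (ρ a⁻¹ * ρ a) v := rfl
          _ = v := by rw [this]; rfl }
  have h : C ⊔ C' ≤ S := sup_le h1 h2
  exact fun c hc => h hc

end Fix

section Avg

open Classical

variable {k : Type*} [Field k] {V : Type*} [AddCommGroup V] [Module k V]
  {G : Type*} [Group G] [Fintype G] (ρ : G →* (V ≃ₗ[k] V))

/-- The (unnormalized) averaging operator of a subgroup. -/
noncomputable def avg (C : Subgroup G) : V →ₗ[k] V :=
  ∑ c ∈ Finset.univ.filter (· ∈ C), (ρ c : V →ₗ[k] V)

theorem avg_apply (C : Subgroup G) (v : V) :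
    avg ρ C v = ∑ c ∈ Finset.univ.filter (· ∈ C), ρ c v := by
  simp [avg, LinearMap.sum_apply]

theorem card_filter_mem (C : Subgroup G) :
    (Finset.univ.filter (· ∈ C)).card = Nat.card C := by
  rw [← Nat.card_eq_finsetCard]
  exact Nat.card_congr (Equiv.subtypeEquivRight (by simp))

theorem avg_mem_fix (C : Subgroup G) (v : V) : avg ρ C v ∈ fix ρ C := by
  intro d hd
  rw [avg_apply, map_sum]
  exact Finset.sum_equiv (Equiv.mulLeft d) (by intro c; simp [C.mul_mem_cancel_left hd])
    (by intro c _; simp [map_mul])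

theorem avg_of_mem_fix (C : Subgroup G) {v : V} (hv : v ∈ fix ρ C) :
    avg ρ C v = (Nat.card C) • v := by
  rw [avg_apply, ← card_filter_mem, ← Finset.sum_const]
  exact Finset.sum_congr rfl (fun c hc => hv c (by simpa using hc))

theorem avg_comm_fix (C C' : Subgroup G) (hcomm : ∀ c ∈ C, ∀ d ∈ C', c * d = d * c) {v : V}
    (hv : v ∈ fix ρ C') : avg ρ C v ∈ fix ρ C' := by
  intro d hd
  rw [avg_apply, map_sum]
  refine Finset.sum_congr rfl (fun c hc => ?_)
  have hc' : c ∈ C := by simpa using hc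
  calc ρ d (ρ c v) = ρ (d * c) v := by rw [map_mul]; rfl
    _ = ρ (c * d) v := by rw [hcomm c hc' d hd]
    _ = ρ c (ρ d v) := by rw [map_mul]; rfl
    _ = ρ c v := by rw [hv d hd]

end Avg


section Count

open Classical

variable {G : Type*} [Group G] [Fintype G]

/-- The subgroups of order `p` of `E`. -/
noncomputable def ordP (E : Subgroup G) (p : ℕ) : Finset (Subgroup G) :=
  (Set.toFinite {C : Subgroup G | C ≤ E ∧ Nat.card C = p}).toFinset

theorem mem_ordP {E : Subgroup G} {p : ℕ} {C : Subgroup G} :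
    C ∈ ordP E p ↔ C ≤ E ∧ Nat.card C = p := by
  simp [ordP]

theorem exists_ne_one_of_card {p : ℕ} (hp : p.Prime) (C : Subgroup G) (hC : Nat.card C = p) :
    ∃ c ∈ C, c ≠ 1 := by
  by_contra hcon
  push Not at hcon
  have : C = ⊥ := (Subgroup.eq_bot_iff_forall C).2 hcon
  rw [this, Subgroup.card_bot] at hC
  exact hp.one_lt.ne hC

theorem sum_ordP {M : Type*} [AddCommMonoid M] {p : ℕ} (hp : p.Prime) (E : Subgroup G)
    (hEp : ∀ e ∈ E, e ^ p = 1) (f : G → M) :
    ∑ C ∈ ordP E p, ∑ c ∈ Finset.univ.filter (· ∈ C), f c + f 1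
      = (ordP E p).card • f 1 + ∑ c ∈ Finset.univ.filter (· ∈ E), f c := by
  have : Fact p.Prime := ⟨hp⟩
  have h1 : ∀ C ∈ ordP E p, ∑ c ∈ Finset.univ.filter (· ∈ C), f c
      = ∑ c : G, if c ∈ C then f c else 0 := fun C _ => Finset.sum_filter _ _
  rw [Finset.sum_congr rfl h1, Finset.sum_comm]
  rw [← Finset.add_sum_erase Finset.univ _ (Finset.mem_univ (1:G))]
  rw [Finset.sum_filter (· ∈ E) f, ← Finset.add_sum_erase Finset.univ
    (fun c => if c ∈ E then f c else 0) (Finset.mem_univ (1:G))]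
  have h2 : ∑ C ∈ ordP E p, (if (1:G) ∈ C then f 1 else 0) = (ordP E p).card • f 1 := by
    simp [one_mem]
  have h3 : ∀ c ∈ Finset.univ.erase (1:G), ∑ C ∈ ordP E p, (if c ∈ C then f c else 0)
      = if c ∈ E then f c else 0 := by
    intro c hc
    have hc1 : c ≠ 1 := Finset.ne_of_mem_erase hc
    by_cases hcE : c ∈ E
    · rw [if_pos hcE]
      have hcard : Nat.card (zpowers c) = p := by
        rw [Nat.card_zpowers]; exact orderOf_eq_prime (hEp c hcE) hc1
      rw [Finset.sum_eq_single (zpowers c)]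
      · simp
      · intro C hC hne
        rw [if_neg]
        intro hcC
        apply hne
        symm
        have hle : zpowers c ≤ C := (zpowers_le).2 hcC
        exact Subgroup.eq_of_le_of_card_ge hle (by rw [hcard, (mem_ordP.1 hC).2])
      · intro hn
        exfalso; apply hn
        exact mem_ordP.2 ⟨(zpowers_le).2 hcE, hcard⟩
    · rw [if_neg hcE]
      apply Finset.sum_eq_zero
      intro C hC
      rw [if_neg]
      intro hcC
      exact hcE ((mem_ordP.1 hC).1 hcC)
  rw [h2, Finset.sum_congr rfl h3, if_pos E.one_mem]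
  abel

theorem card_ordP {p : ℕ} (hp : p.Prime) (E : Subgroup G) (hE2 : Nat.card E = p ^ 2)
    (hEp : ∀ e ∈ E, e ^ p = 1) : (ordP E p).card = p + 1 := by
  have h := sum_ordP (M := ℕ) hp E hEp (fun _ => 1)
  simp only [Finset.sum_const, smul_eq_mul, mul_one] at h
  have h1 : ∀ C ∈ ordP E p, (Finset.univ.filter (· ∈ C)).card = p := by
    intro C hC
    rw [card_filter_mem, (mem_ordP.1 hC).2]
  rw [Finset.sum_congr rfl h1, Finset.sum_const, smul_eq_mul, card_filter_mem, hE2] at h
  obtain ⟨m, rfl⟩ : ∃ m, p = m + 2 := ⟨p - 2, by have := hp.two_le; omega⟩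
  have h' : (m + 1) * (ordP E (m + 2)).card = (m + 1) * (m + 2 + 1) := by nlinarith
  exact Nat.eq_of_mul_eq_mul_left (Nat.succ_pos m) h'

theorem sup_eq_of_ordP {p : ℕ} (hp : p.Prime) (E : Subgroup G) (hE2 : Nat.card E = p ^ 2)
    {C C' : Subgroup G} (hC : C ∈ ordP E p) (hC' : C' ∈ ordP E p) (hne : C ≠ C') :
    C ⊔ C' = E := by
  rw [mem_ordP] at hC hC'
  have hle : C ⊔ C' ≤ E := sup_le hC.1 hC'.1
  have hdvd : Nat.card (C ⊔ C' : Subgroup G) ∣ p ^ 2 := hE2 ▸ Subgroup.card_dvd_of_le hle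
  obtain ⟨j, hj2, hj⟩ := (Nat.dvd_prime_pow hp).1 hdvd
  have hj2' : j = 2 := by
    by_contra hcon
    have hj1 : j ≤ 1 := by omega
    have hle' : Nat.card (C ⊔ C' : Subgroup G) ≤ p := by
      rw [hj]; calc p ^ j ≤ p ^ 1 := Nat.pow_le_pow_right hp.pos hj1
        _ = p := pow_one p
    have h1 : C = C ⊔ C' := Subgroup.eq_of_le_of_card_ge le_sup_left (by rw [hC.2]; exact hle')
    have h2 : C' ≤ C := by rw [h1]; exact le_sup_right
    exact hne (Subgroup.eq_of_le_of_card_ge h2 (by rw [hC.2, hC'.2])).symm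
  rw [hj2'] at hj
  exact Subgroup.eq_of_le_of_card_ge hle (by rw [hj, hE2])

end Count


section Main

open Classical

variable {k : Type*} [Field k] {V : Type*} [AddCommGroup V] [Module k V]
  {G : Type*} [Group G]

theorem exists_fix_ne_bot [Fintype G] (ρ : G →* (V ≃ₗ[k] V)) {p : ℕ} (hpr : p.Prime)
    (E : Subgroup G) (hE2 : Nat.card E = p ^ 2)
    (hEp : ∀ e ∈ E, e ^ p = 1) (hfixE : fix ρ E = ⊥) (hp : ∀ v : V, p • v = 0 → v = 0)
    [Nontrivial V] : ∃ C ∈ ordP E p, fix ρ C ≠ ⊥ := by
  by_contra hcon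
  push Not at hcon
  obtain ⟨v, hv⟩ := exists_ne (0 : V)
  apply hv
  apply hp
  have h := sum_ordP hpr E hEp (fun c => ρ c v)
  have h1 : ∀ C ∈ ordP E p, ∑ c ∈ Finset.univ.filter (· ∈ C), ρ c v = 0 := by
    intro C hC
    have := avg_mem_fix ρ C v
    rw [hcon C hC, Submodule.mem_bot, avg_apply] at this
    exact this
  have h2 : ∑ c ∈ Finset.univ.filter (· ∈ E), ρ c v = 0 := by
    have := avg_mem_fix ρ E v
    rw [hfixE, Submodule.mem_bot, avg_apply] at this
    exact this
  rw [Finset.sum_congr rfl h1, h2, card_ordP hpr E hE2 hEp, Finset.sum_const_zero, zero_add,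
    add_zero, map_one, succ_nsmul] at h
  have h3 : ((1 : V ≃ₗ[k] V)) v = v := rfl
  rw [h3] at h
  exact (add_eq_right.1 h.symm)

theorem iSupIndep_of_proj {ι : Type*} (W : ι → Submodule k V) (π : ι → (V →ₗ[k] V)) (n : ℕ)
    (hn : ∀ v : V, n • v = 0 → v = 0)
    (h1 : ∀ i, ∀ w ∈ W i, π i w = n • w) (h2 : ∀ i j, j ≠ i → ∀ w ∈ W j, π i w = 0) :
    iSupIndep W := by
  rw [iSupIndep_def]
  intro i
  rw [Submodule.disjoint_def]
  intro x hx hx'
  have hle : (⨆ j, ⨆ (_ : j ≠ i), W j) ≤ LinearMap.ker (π i) := by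
    refine iSup_le fun j => iSup_le fun hj => ?_
    intro w hw
    exact LinearMap.mem_ker.2 (h2 i j hj w hw)
  have := LinearMap.mem_ker.1 (hle hx')
  rw [h1 i x hx] at this
  exact hn x this


theorem main (ρ : G →* (V ≃ₗ[k] V)) {p : ℕ} [Fact p.Prime] [Finite G] [Nontrivial V]
    (hG : IsPGroup p G) (hρ : Function.Injective ρ)
    (hirr : ∀ W : Submodule k V, (∀ g : G, ∀ w ∈ W, ρ g w ∈ W) → W = ⊥ ∨ W = ⊤)
    (hp : ∀ v : V, p • v = 0 → v = 0)
    (E : Subgroup G) [hEn : E.Normal] (hE2 : Nat.card E = p ^ 2) (hEp : ∀ e ∈ E, e ^ p = 1) :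
    ∃ (H : Subgroup G) (W : Fin p → Submodule k V), H.index = p ∧
      iSup W = ⊤ ∧ iSupIndep W ∧
      (∀ h ∈ H, ∀ i, ∀ w ∈ W i, ρ h w ∈ W i) ∧
      (∀ i, ∃ h ∈ H, h ≠ 1 ∧ ∀ w ∈ W i, ρ h w = w) ∧
      ∀ g : G, g ∉ H → ∃ σ : Equiv.Perm (Fin p), orderOf σ = p ∧
        ∀ i, (W i).map (ρ g : V →ₗ[k] V) = W (σ i) := by
  have : Fintype G := Fintype.ofFinite G
  have hpr : p.Prime := Fact.out
  -- `E` is abelian
  have hEcomm : ∀ a ∈ E, ∀ b ∈ E, a * b = b * a := by
    intro a ha b hb
    have hc : IsMulCommutative E := IsPGroup.isMulCommutative_of_card_eq_prime_sq hE2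
    have := mul_comm' (⟨a, ha⟩ : E) ⟨b, hb⟩
    exact congrArg Subtype.val this
  have hcjE : ∀ g : G, cj g E = E := by
    intro g; ext x; rw [mem_cj]
    constructor
    · intro h; have := hEn.conj_mem _ h g; simpa [mul_assoc] using this
    · intro h; have := hEn.conj_mem _ h g⁻¹; simpa [mul_assoc] using this
  have hE1 : ∃ e ∈ E, e ≠ 1 := by
    by_contra hcon
    push Not at hcon
    have : E = ⊥ := (Subgroup.eq_bot_iff_forall E).2 hcon
    rw [this, Subgroup.card_bot] at hE2
    have := hpr.one_lt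
    nlinarith
  have hfaith : ∀ C : Subgroup G, (∃ c ∈ C, c ≠ 1) → fix ρ C ≠ ⊤ := by
    rintro C ⟨c, hc, hc1⟩ htop
    apply hc1
    apply hρ
    rw [map_one]
    ext v
    have : v ∈ fix ρ C := htop ▸ Submodule.mem_top
    exact this c hc
  have hfixE : fix ρ E = ⊥ := by
    rcases hirr (fix ρ E) (fun g w hw => by
      have := map_mem_fix_cj ρ g hw; rwa [hcjE] at this) with h | h
    · exact h
    · exact absurd h (hfaith E hE1)
  obtain ⟨C₀, hC₀, hC₀ne⟩ := exists_fix_ne_bot ρ hpr E hE2 hEp hfixE hp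
  let _ : MulAction G (Subgroup G) := cjAction G
  have hsmul : ∀ (g : G) (C : Subgroup G), g • C = cj g C := fun _ _ => rfl
  have hstab : ∀ (g : G) (C : Subgroup G), C ∈ ordP E p → g • C ∈ ordP E p := by
    intro g C hC
    rw [mem_ordP] at hC ⊢
    refine ⟨?_, ?_⟩
    · rw [hsmul, ← hcjE g]; exact Subgroup.map_mono hC.1
    · rw [hsmul, card_cj, hC.2]
  have hOsub : ∀ C ∈ MulAction.orbit G C₀, C ∈ ordP E p := by
    rintro C ⟨g, rfl⟩
    exact hstab g C₀ hC₀
  have hidx : (MulAction.stabilizer G C₀).index = (MulAction.orbit G C₀).ncard :=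
    MulAction.index_stabilizer G C₀
  -- the sum of the fixed spaces over the orbit is everything
  have hsupO : ⨆ C : MulAction.orbit G C₀, fix ρ (C : Subgroup G) = ⊤ := by
    have hinv : ∀ g : G, ∀ w ∈ ⨆ C : MulAction.orbit G C₀, fix ρ (C : Subgroup G),
        ρ g w ∈ ⨆ C : MulAction.orbit G C₀, fix ρ (C : Subgroup G) := by
      intro g w hw
      have hmap : (⨆ C : MulAction.orbit G C₀, fix ρ (C : Subgroup G)).map (ρ g : V →ₗ[k] V)
          ≤ ⨆ C : MulAction.orbit G C₀, fix ρ (C : Subgroup G) := by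
        rw [Submodule.map_iSup]
        refine iSup_le fun C => ?_
        rw [fix_map]
        exact le_iSup (fun C : MulAction.orbit G C₀ => fix ρ (C : Subgroup G))
          ⟨g • (C : Subgroup G), MulAction.mem_orbit_of_mem_orbit g C.2⟩
      exact hmap ⟨w, hw, rfl⟩
    rcases hirr _ hinv with h | h
    · exfalso; apply hC₀ne
      have : fix ρ C₀ ≤ ⨆ C : MulAction.orbit G C₀, fix ρ (C : Subgroup G) :=
        le_iSup (fun C : MulAction.orbit G C₀ => fix ρ (C : Subgroup G))
          ⟨C₀, MulAction.mem_orbit_self C₀⟩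
      rw [h] at this; exact le_bot_iff.1 this
    · exact h
  obtain ⟨a, ha⟩ := hG.index (MulAction.stabilizer G C₀)
  have hOle : (MulAction.orbit G C₀).ncard ≤ p + 1 := by
    rw [← card_ordP hpr E hE2 hEp]
    have hsub : MulAction.orbit G C₀ ⊆ (ordP E p : Set (Subgroup G)) := hOsub
    calc (MulAction.orbit G C₀).ncard ≤ (ordP E p : Set (Subgroup G)).ncard :=
          Set.ncard_le_ncard hsub (Finset.finite_toSet _)
      _ = (ordP E p).card := Set.ncard_coe_finset _
  have hC₀card : Nat.card C₀ = p := (mem_ordP.1 hC₀).2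
  have ha1 : a = 1 := by
    have h0 : a ≠ 0 := by
      rintro rfl
      rw [pow_zero, Subgroup.index_eq_one] at ha
      have hinv : ∀ g : G, ∀ w ∈ fix ρ C₀, ρ g w ∈ fix ρ C₀ := by
        intro g w hw
        have hg : g ∈ MulAction.stabilizer G C₀ := ha ▸ Subgroup.mem_top g
        have hg' : cj g C₀ = C₀ := MulAction.mem_stabilizer_iff.1 hg
        have := map_mem_fix_cj ρ g hw
        rwa [hg'] at this
      rcases hirr _ hinv with h | h
      · exact hC₀ne h
      · exact hfaith C₀ (exists_ne_one_of_card hpr C₀ hC₀card) h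
    have h2 : a < 2 := by
      by_contra hcon
      push Not at hcon
      have h3 : p ^ 2 ≤ p ^ a := Nat.pow_le_pow_right hpr.pos hcon
      have h4 : p ^ a ≤ p + 1 := by rw [← ha, hidx]; exact hOle
      have := hpr.two_le
      nlinarith
    omega
  rw [ha1, pow_one] at ha
  -- `H` is normal
  have hHn : (MulAction.stabilizer G C₀).Normal := by
    apply Subgroup.normal_of_index_eq_minFac_card
    obtain ⟨n, hn⟩ := IsPGroup.iff_card.1 hG
    have hn0 : n ≠ 0 := by
      rintro rfl
      rw [pow_zero] at hn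
      have h1 : (MulAction.stabilizer G C₀).index ∣ Nat.card G := Subgroup.index_dvd_card _
      rw [ha, hn, Nat.dvd_one] at h1
      exact hpr.one_lt.ne' h1
    rw [ha, hn, Nat.Prime.pow_minFac hpr hn0]
  have hHO : ∀ h ∈ MulAction.stabilizer G C₀, ∀ C ∈ MulAction.orbit G C₀, cj h C = C := by
    rintro h hh C ⟨g, rfl⟩
    have h1 : g⁻¹ * h * g ∈ MulAction.stabilizer G C₀ := by
      have := hHn.conj_mem h hh g⁻¹; simpa [mul_assoc] using this
    have h2 : (g⁻¹ * h * g) • C₀ = C₀ := MulAction.mem_stabilizer_iff.1 h1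
    show h • g • C₀ = g • C₀
    conv_rhs => rw [← h2]
    rw [← mul_smul, ← mul_smul]
    congr 1; group
  have hEH : E ≤ MulAction.stabilizer G C₀ := by
    intro e he
    rw [MulAction.mem_stabilizer_iff]
    show cj e C₀ = C₀
    have hC₀E : C₀ ≤ E := (mem_ordP.1 hC₀).1
    ext x
    rw [mem_cj]
    constructor
    · intro hx
      have hxE : x ∈ E := by
        have := E.mul_mem (E.mul_mem he (hC₀E hx)) (E.inv_mem he)
        simpa [mul_assoc] using this
      have : e⁻¹ * x * e = x := by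
        rw [mul_assoc, hEcomm x hxE e he, inv_mul_cancel_left]
      rwa [this] at hx
    · intro hx
      have hxE := hC₀E hx
      have : e⁻¹ * x * e = x := by
        rw [mul_assoc, hEcomm x hxE e he, inv_mul_cancel_left]
      rwa [this]
  -- enumerate the orbit
  have hOcard : Nat.card (MulAction.orbit G C₀) = p := by
    rw [Nat.card_coe_set_eq, ← hidx, ha]
  have : Finite (MulAction.orbit G C₀) :=
    Nat.finite_of_card_ne_zero (by rw [hOcard]; exact hpr.ne_zero)
  let e : Fin p ≃ MulAction.orbit G C₀ := (Finite.equivFinOfCardEq hOcard).symm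
  refine ⟨MulAction.stabilizer G C₀, fun i => fix ρ (e i : Subgroup G), ha, ?_, ?_, ?_, ?_, ?_⟩
  · rw [← hsupO]
    exact e.iSup_comp (g := fun C : MulAction.orbit G C₀ => fix ρ (C : Subgroup G))
  · apply iSupIndep_of_proj (fun i => fix ρ (e i : Subgroup G))
      (fun i => avg ρ (e i : Subgroup G)) p hp
    · intro i w hw
      rw [avg_of_mem_fix ρ _ hw, (mem_ordP.1 (hOsub _ (e i).2)).2]
    · intro i j hji w hw
      have hCi := hOsub _ (e i).2
      have hCj := hOsub _ (e j).2
      have h1 := avg_mem_fix ρ (e i : Subgroup G) w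
      have h2 : avg ρ (e i : Subgroup G) w ∈ fix ρ (e j : Subgroup G) :=
        avg_comm_fix ρ _ _ (fun c hc d hd =>
          hEcomm c ((mem_ordP.1 hCi).1 hc) d ((mem_ordP.1 hCj).1 hd)) hw
      have h3 := mem_fix_sup ρ h1 h2
      have hne : (e i : Subgroup G) ≠ (e j : Subgroup G) := by
        intro h
        exact hji (e.injective (Subtype.ext h)).symm
      rw [sup_eq_of_ordP hpr E hE2 hCi hCj hne, hfixE, Submodule.mem_bot] at h3
      exact h3
  · intro h hh i w hw
    have := map_mem_fix_cj ρ h hw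
    rwa [hHO h hh _ (e i).2] at this
  · intro i
    have hCi := hOsub _ (e i).2
    obtain ⟨c, hc, hc1⟩ := exists_ne_one_of_card hpr (e i : Subgroup G) (mem_ordP.1 hCi).2
    exact ⟨c, hEH ((mem_ordP.1 hCi).1 hc), hc1, fun w hw => hw c hc⟩
  · intro g hg
    let φ : G →* Equiv.Perm (Fin p) :=
      (e.symm.permCongrHom).toMonoidHom.comp (MulAction.toPermHom G (MulAction.orbit G C₀))
    have hφ : ∀ (x : G) (i : Fin p), (e (φ x i) : Subgroup G) = cj x (e i : Subgroup G) := by
      intro x i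
      have : e (φ x i) = x • e i := by
        show e (e.symm (x • e.symm.symm i)) = x • e i
        rw [Equiv.apply_symm_apply, Equiv.symm_symm]
      rw [this, MulAction.orbit.coe_smul]
      exact hsmul _ _
    have hφH : ∀ h ∈ MulAction.stabilizer G C₀, φ h = 1 := by
      intro h hh
      ext i
      have h1 := hφ h i
      rw [hHO h hh _ (e i).2] at h1
      have h2 : φ h i = i := e.injective (Subtype.ext h1)
      rw [h2]; rfl
    refine ⟨φ g, ?_, ?_⟩
    · apply orderOf_eq_prime
      · rw [← map_pow]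
        apply hφH
        have := Subgroup.pow_index_mem (MulAction.stabilizer G C₀) g
        rwa [ha] at this
      · intro h1
        apply hg
        rw [MulAction.mem_stabilizer_iff]
        have h2 := hφ g (e.symm ⟨C₀, MulAction.mem_orbit_self C₀⟩)
        rw [h1] at h2
        simp only [Equiv.Perm.coe_one, id_eq, Equiv.apply_symm_apply] at h2
        exact h2.symm
    · intro i
      show (fix ρ (e i : Subgroup G)).map (ρ g : V →ₗ[k] V) = fix ρ (e (φ g i) : Subgroup G)
      rw [fix_map, hφ]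

end Main

end Cfsg.Agent.Lib.Helper47.Imprim
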