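import Mathlib
import Cfsg.Prelude.Def_Solvable
import Cfsg.Agent.Lib.Helper47.FrobFree
import Cfsg.Agent.Lib.Helper47.Imprim
import Cfsg.Agent.Lib.Helper33.PCore
import Cfsg.Agent.S0670

/-!
# Modules for Frobenius groups are free over the complement

If `A` is a Frobenius group with nilpotent kernel `Fk` and complement `Hc`, and `V` is a
finite-dimensional `k[A]`-module on which `Fk` has no nonzero fixed vector, then `V` is a free
`k[Hc]`-module (no assumption on the characteristic).
-/

namespace Cfsg.Agent.Lib.Helper47.FrobFree2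

open Cfsg

open scoped Pointwise

section

variable {k V A : Type*} [Field k] [AddCommGroup V] [Module k V] [Group A]

/-- Non-identity elements of a Frobenius complement centralize no non-identity element of the
kernel. -/
theorem fpf_of_frobenius (Fk Hc : Subgroup A) (hHc : Cfsg.IsFrobeniusComplement Hc)
    (hker : Cfsg.frobeniusKernel Hc = (Fk : Set A)) :
    ∀ h ∈ Hc, h ≠ 1 → ∀ f ∈ Fk, h * f = f * h → f = 1 := by
  intro h hh h1 f hf hcomm
  have hf' : f ∈ Cfsg.frobeniusKernel Hc := by rw [hker]; exact hf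
  rcases hf' with rfl | hf'
  · rfl
  exfalso
  have hfH : f ∉ Hc := by
    have := hf' 1
    simpa using this
  have hbot := hHc.2.2 f hfH
  have hmem : h ∈ Hc ⊓ (MulAut.conj f • Hc) := by
    refine ⟨hh, ?_⟩
    have := Subgroup.smul_mem_pointwise_smul h (MulAut.conj f) Hc hh
    have e : MulAut.conj f • h = h := by
      rw [MulAut.smul_def, MulAut.conj_apply, ← hcomm, mul_inv_cancel_right]
    rwa [e] at this
  rw [hbot, Subgroup.mem_bot] at hmem
  exact h1 hmem

/-- Passage to the `p'`-part of the kernel. -/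
theorem exists_F0 [Finite A] (ρ : Representation k A V) (Fk : Subgroup A) [Fk.Normal]
    (hnil : Group.IsNilpotent ↥Fk) (hCF : ∀ v : V, (∀ f ∈ Fk, ρ f v = v) → v = 0) :
    ∃ F₀ : Subgroup A, F₀ ≤ Fk ∧ F₀.Normal ∧ ((Nat.card F₀ : ℕ) : k) ≠ 0 ∧
      ∀ v : V, (∀ f ∈ F₀, ρ f v = v) → v = 0 := by
  by_cases h0 : ((Nat.card Fk : ℕ) : k) = 0
  swap
  · exact ⟨Fk, le_rfl, inferInstance, h0, hCF⟩
  obtain ⟨p, hp⟩ := CharP.exists k
  have hp0 : p ≠ 0 := by
    rintro rfl
    have := CharP.charP_to_charZero k
    exact Nat.card_pos.ne' (Nat.cast_eq_zero.mp h0)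
  have hpp : p.Prime := (CharP.char_is_prime_or_zero k p).resolve_right hp0
  have : Fact p.Prime := ⟨hpp⟩
  obtain ⟨O, hOdef⟩ : ∃ O : Subgroup Fk, O = Cfsg.pPrimeCore p Fk := ⟨_, rfl⟩
  have hOcop : (Nat.card O).Coprime p := by
    rw [hOdef]; exact Lib.Helper33.PCore.pPrimeCore_card_coprime p
  have hOn : O.Normal := by rw [hOdef]; exact Lib.Helper33.PCore.pPrimeCore_normal p
  have hOchar : O.Characteristic := by
    rw [Subgroup.characteristic_iff_map_le]
    intro ϕ
    have h1 : (O.map ϕ.toMonoidHom).Normal := hOn.map _ ϕ.surjective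
    have h2 : (Nat.card (O.map ϕ.toMonoidHom)).Coprime p := by
      rw [← Nat.card_congr (O.equivMapOfInjective ϕ.toMonoidHom ϕ.injective).toEquiv]
      exact hOcop
    rw [hOdef] at h1 h2 ⊢
    exact Lib.Helper33.PCore.le_pPrimeCore h2
  have hNn : (O.map Fk.subtype).Normal := ConjAct.normal_of_characteristic_of_normal
  refine ⟨O.map Fk.subtype, Subgroup.map_subtype_le _, hNn, ?_, ?_⟩
  · rw [← Nat.card_congr (O.equivMapOfInjective Fk.subtype Fk.subtype_injective).toEquiv, Ne,
      CharP.cast_eq_zero_iff k p]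
    intro hdvd
    exact hpp.one_lt.ne' (Nat.Coprime.eq_one_of_dvd hOcop.symm hdvd)
  · intro v hv
    by_contra hv0
    let W : Submodule k V :=
      { carrier := {w | ∀ f ∈ O.map Fk.subtype, ρ f w = w}
        add_mem' := by
          intro a b ha hb f hf
          rw [map_add, ha f hf, hb f hf]
        zero_mem' := by intro f _; simp
        smul_mem' := by
          intro c a ha f hf
          rw [map_smul, ha f hf] }
    have hW : W ≠ ⊥ := fun h => hv0 ((Submodule.eq_bot_iff W).1 h v hv)
    obtain ⟨P⟩ : Nonempty (Sylow p Fk) := inferInstance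
    have hP' : IsPGroup p ((P : Subgroup Fk).map Fk.subtype) := P.isPGroup'.map _
    have hinv : ∀ g ∈ (P : Subgroup Fk).map Fk.subtype, ∀ w ∈ W, ρ g w ∈ W := by
      intro g _ w hw f hf
      have hmem : g⁻¹ * f * g ∈ O.map Fk.subtype := by
        have := hNn.conj_mem f hf g⁻¹
        simpa using this
      have h1 := hw _ hmem
      calc ρ f (ρ g w) = ρ g (ρ (g⁻¹ * f * g) w) := by
            rw [← Module.End.mul_apply, ← Module.End.mul_apply, ← map_mul, ← map_mul]
            congr 2
            group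
        _ = ρ g w := by rw [h1]
    obtain ⟨w, hwW, hw0, hwfix⟩ :=
      Cfsg.Agent.S0670.exists_fixed ρ ((P : Subgroup Fk).map Fk.subtype) hP' W hW hinv
    apply hw0
    apply hCF
    let St : Subgroup Fk :=
      { carrier := {x | ρ (x : A) w = w}
        mul_mem' := by
          intro a b ha hb
          simp only [Set.mem_ofPred_eq] at ha hb ⊢
          rw [Subgroup.coe_mul, map_mul, Module.End.mul_apply, hb, ha]
        one_mem' := by simp
        inv_mem' := by
          intro a ha
          simp only [Set.mem_ofPred_eq] at ha ⊢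
          have h1 : ρ ((a⁻¹ : Fk) : A) (ρ (a : A) w) = w := by
            rw [← Module.End.mul_apply, ← map_mul, Subgroup.coe_inv, inv_mul_cancel, map_one]
            rfl
          rw [ha] at h1
          exact h1 }
    have hPSt : (P : Subgroup Fk) ≤ St := fun x hx =>
      hwfix x (Subgroup.mem_map_of_mem _ hx)
    have hOSt : O ≤ St := fun x hx => hwW x (Subgroup.mem_map_of_mem _ hx)
    have htop : St = ⊤ := by
      rw [← Subgroup.index_eq_one]
      by_contra hne
      obtain ⟨q, hq, hqdvd⟩ := Nat.exists_prime_and_dvd hne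
      by_cases hqp : q = p
      · subst hqp
        exact P.not_dvd_index (dvd_trans hqdvd (Subgroup.index_dvd_of_le hPSt))
      · have : Fact q.Prime := ⟨hq⟩
        obtain ⟨Q⟩ : Nonempty (Sylow q Fk) := inferInstance
        have hT : Group.IsNilpotent Fk ↔ ∀ (p : ℕ) (_hp : Fact p.Prime) (P : Sylow p Fk),
            (↑P : Subgroup Fk).Normal := (Group.isNilpotent_of_finite_tfae (G := Fk)).out 0 3
        have hQn : (Q : Subgroup Fk).Normal := hT.mp hnil q inferInstance Q
        have hQc : (Nat.card (Q : Subgroup Fk)).Coprime p := by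
          obtain ⟨n, hn⟩ := IsPGroup.iff_card.mp Q.isPGroup'
          rw [hn]
          exact Nat.Coprime.pow_left n ((Nat.coprime_primes hq hpp).2 hqp)
        have hQO : (Q : Subgroup Fk) ≤ O := by
          rw [hOdef]
          exact Lib.Helper33.PCore.le_pPrimeCore hQc
        exact Q.not_dvd_index (dvd_trans hqdvd (Subgroup.index_dvd_of_le (hQO.trans hOSt)))
    intro f hf
    have : (⟨f, hf⟩ : Fk) ∈ St := by rw [htop]; trivial
    exact this

/-- From the projection form of freeness to an internal direct sum. -/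
theorem internal_of_freeP {H : Type*} [Group H] [Fintype H] [DecidableEq H]
    (ρ : H →* Module.End k V) (π : Module.End k V) (hπ : FrobFree.FreeP ρ 1 π) :
    DirectSum.IsInternal (fun h : H => (LinearMap.range π).map (ρ h)) := by
  obtain ⟨-, -, hpp, hort, hsum⟩ := hπ
  rw [DirectSum.isInternal_submodule_iff_iSupIndep_and_iSup_eq_top]
  constructor
  · refine Imprim.iSupIndep_of_proj _ (fun h => ρ h * π * ρ h⁻¹) 1
      (by intro v hv; simpa using hv) ?_ ?_
    · rintro i w ⟨_, ⟨x, rfl⟩, rfl⟩
      simp only [Module.End.mul_apply, one_smul]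
      rw [← Module.End.mul_apply (ρ i⁻¹) (ρ i), ← map_mul, inv_mul_cancel, map_one,
        Module.End.one_apply, ← Module.End.mul_apply π π, hpp]
    · rintro i j hji w ⟨_, ⟨x, rfl⟩, rfl⟩
      simp only [Module.End.mul_apply]
      have : π (ρ i⁻¹ (ρ j (π x))) = 0 := by
        have h1 := hort (i⁻¹ * j) (fun hc => hji (by rw [inv_mul_eq_one] at hc; exact hc.symm))
        have := congrArg (fun t => t x) h1
        simpa [map_mul, Module.End.mul_apply] using this
      rw [this, map_zero]
  · rw [eq_top_iff]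
    intro x _
    have hx : x = ∑ h : H, (ρ h * π * ρ h⁻¹) x := by
      rw [← LinearMap.sum_apply, hsum]; rfl
    rw [hx]
    refine Submodule.sum_mem _ fun h _ => ?_
    refine Submodule.mem_iSup_of_mem h ?_
    exact ⟨π (ρ h⁻¹ x), ⟨_, rfl⟩, rfl⟩

/-- A module for a Frobenius group with nilpotent kernel on which the kernel has no nonzero
fixed vector is free over the complement. -/
theorem frobenius_free [FiniteDimensional k V] [Finite A] [DecidableEq A]
    (ρ : Representation k A V) (Fk Hc : Subgroup A) [Fk.Normal]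
    (hHc : Cfsg.IsFrobeniusComplement Hc) (hker : Cfsg.frobeniusKernel Hc = (Fk : Set A))
    (hnil : Group.IsNilpotent ↥Fk) (hCF : ∀ v : V, (∀ f ∈ Fk, ρ f v = v) → v = 0) :
    ∃ W : Submodule k V, DirectSum.IsInternal (fun h : ↥Hc => W.map (ρ (h : A))) := by
  obtain ⟨F₀, hF₀le, hF₀n, hF₀c, hF₀0⟩ := exists_F0 ρ Fk hnil hCF
  have hfpf := fpf_of_frobenius Fk Hc hHc hker
  have : Fintype Hc := Fintype.ofFinite Hc
  have hnil₀ : Group.IsNilpotent F₀ := by
    have := hnil
    exact Group.nilpotent_of_mulEquiv (Subgroup.subgroupOfEquivOfLe hF₀le)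
  let φ : Hc → F₀ →* F₀ := fun h =>
    { toFun := fun f => ⟨h * f * (h : A)⁻¹, hF₀n.conj_mem f f.2 h⟩
      map_one' := by ext; simp
      map_mul' := fun a b => by ext; simp }
  have hφ : ∀ (h : Hc) (f : F₀), ((φ h f : F₀) : A) = h * f * (h : A)⁻¹ := fun _ _ => rfl
  obtain ⟨π, hπ⟩ := FrobFree.main (k := k) hnil₀ hF₀c (Module.finrank k V) Hc φ (by
      intro h h1 f hf
      have h2 : (h : A) * f * (h : A)⁻¹ = f := by rw [← hφ, hf]
      have h3 : (h : A) * f = f * h := by
        calc (h : A) * f = ((h : A) * f * (h : A)⁻¹) * h := by group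
          _ = f * h := by rw [h2]
      exact Subtype.ext (hfpf h h.2 (fun hc => h1 (Subtype.ext hc)) f (hF₀le f.2) h3))
    V ((ρ : A →* Module.End k V).comp F₀.subtype) ((ρ : A →* Module.End k V).comp Hc.subtype) (by
      intro h f
      show ρ (h : A) * ρ (f : A) = ρ ((φ h f : F₀) : A) * ρ (h : A)
      rw [hφ, ← map_mul, ← map_mul]
      congr 1
      group) (by
      intro v hv
      exact hF₀0 v (fun f hf => hv ⟨f, hf⟩)) rfl
  have key := internal_of_freeP ((ρ : A →* Module.End k V).comp Hc.subtype) π hπ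
  exact ⟨LinearMap.range π, key⟩

end

end Cfsg.Agent.Lib.Helper47.FrobFree2
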