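import Mathlib
import Cfsg.Agent.Lib.Helper45.GMStmt
import Cfsg.Agent.Lib.Helper43.GACB

/-!
# S2719 piece CB (helper47): CaseNonsqG

The generic statement is `Helper43.GACB.core` (helper43's proof of S2718/CB is already generic
in the quadratic form).
-/

set_option autoImplicit false

namespace Cfsg.Agent.Lib.Helper47.GMCB

open Matrix Module QuadraticMap

universe u

theorem main : Cfsg.Agent.Lib.Helper45.GMStmt.CaseNonsqG.{u} := by
  intro F _ _ ι _ _ Q h2 hS hn G ν hν hGG hG
  have hd : 3 ≤ finrank F (ι → F) := by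
    rw [Module.finrank_fintype_fun_eq_card]; omega
  exact Cfsg.Agent.Lib.Helper43.GACB.core Q hS hd h2 G ν hν hGG hG

end Cfsg.Agent.Lib.Helper47.GMCB
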