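import Mathlib
import Cfsg.Agent.Lib.Helper45.GMStmt
import Cfsg.Agent.Lib.Helper44.Inv8

/-!
# S2719 piece L2 (helper47): EigTS

The minus form has no similarity `M` with `M² = ν²` and multiplier `μ ≠ ν²`: its two eigenspaces
would be complementary totally singular subspaces, but the Witt index is `m`.
-/

set_option autoImplicit false

namespace Cfsg.Agent.Lib.Helper47.GML2

open Matrix Module QuadraticMap
open Cfsg.Agent.Lib.Helper44.QSpace Cfsg.Agent.Lib.Helper44.NegPairs
open Cfsg.Agent.Lib.Helper44.MFldStmt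

universe u

theorem main : Cfsg.Agent.Lib.Helper45.GMStmt.EigTS.{u} := by
  intro F _ _ m a b hab h2 M ν μ hν hμ hMM hQ
  classical
  have hS := sep_minusQ h2 m a b hab
  have hQ' : ∀ x, minusQ m F a b (M *ᵥ x) = μ * minusQ m F a b x := hQ
  have hMMx : ∀ x : MI m → F, M *ᵥ (M *ᵥ x) = (ν ^ 2) • x := by
    intro x
    rw [Matrix.mulVec_mulVec, hMM, Matrix.smul_mulVec, Matrix.one_mulVec]
  have hne : ν ^ 2 - μ ≠ 0 := sub_ne_zero.2 (Ne.symm hμ)
  let Vp : Submodule F (MI m → F) :=
    { carrier := {x | M *ᵥ x = ν • x}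
      add_mem' := by
        intro x y hx hy
        show M *ᵥ (x + y) = ν • (x + y)
        rw [Matrix.mulVec_add, show M *ᵥ x = ν • x from hx, show M *ᵥ y = ν • y from hy,
          smul_add]
      zero_mem' := by
        show M *ᵥ (0 : MI m → F) = ν • (0 : MI m → F)
        rw [Matrix.mulVec_zero, smul_zero]
      smul_mem' := by
        intro c x hx
        show M *ᵥ (c • x) = ν • (c • x)
        rw [Matrix.mulVec_smul, show M *ᵥ x = ν • x from hx, smul_comm] }
  let Vm : Submodule F (MI m → F) :=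
    { carrier := {x | M *ᵥ x = (-ν) • x}
      add_mem' := by
        intro x y hx hy
        show M *ᵥ (x + y) = (-ν) • (x + y)
        rw [Matrix.mulVec_add, show M *ᵥ x = (-ν) • x from hx,
          show M *ᵥ y = (-ν) • y from hy, smul_add]
      zero_mem' := by
        show M *ᵥ (0 : MI m → F) = (-ν) • (0 : MI m → F)
        rw [Matrix.mulVec_zero, smul_zero]
      smul_mem' := by
        intro c x hx
        show M *ᵥ (c • x) = (-ν) • (c • x)
        rw [Matrix.mulVec_smul, show M *ᵥ x = (-ν) • x from hx, smul_comm] }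
  have hVp : ∀ x ∈ Vp, minusQ m F a b x = 0 := by
    intro x hx
    have hx' : M *ᵥ x = ν • x := hx
    have h1 := hQ' x
    rw [hx', QuadraticMap.map_smul, smul_eq_mul] at h1
    have h3 : (ν ^ 2 - μ) * minusQ m F a b x = 0 := by linear_combination h1
    exact (mul_eq_zero.1 h3).resolve_left hne
  have hVm : ∀ x ∈ Vm, minusQ m F a b x = 0 := by
    intro x hx
    have hx' : M *ᵥ x = (-ν) • x := hx
    have h1 := hQ' x
    rw [hx', QuadraticMap.map_smul, smul_eq_mul] at h1
    have h3 : (ν ^ 2 - μ) * minusQ m F a b x = 0 := by linear_combination h1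
    exact (mul_eq_zero.1 h3).resolve_left hne
  have h2ν : (2 * ν) ≠ 0 := mul_ne_zero h2 hν
  have hsup : Vp ⊔ Vm = ⊤ := by
    rw [eq_top_iff]
    intro x _
    have hp : (2 * ν)⁻¹ • (ν • x + M *ᵥ x) ∈ Vp := by
      apply Submodule.smul_mem
      show M *ᵥ (ν • x + M *ᵥ x) = ν • (ν • x + M *ᵥ x)
      rw [Matrix.mulVec_add, Matrix.mulVec_smul, hMMx]
      module
    have hm : (2 * ν)⁻¹ • (ν • x - M *ᵥ x) ∈ Vm := by
      apply Submodule.smul_mem
      show M *ᵥ (ν • x - M *ᵥ x) = (-ν) • (ν • x - M *ᵥ x)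
      rw [Matrix.mulVec_sub, Matrix.mulVec_smul, hMMx]
      module
    have hx : x = (2 * ν)⁻¹ • (ν • x + M *ᵥ x) + (2 * ν)⁻¹ • (ν • x - M *ᵥ x) := by
      rw [← smul_add]
      have h4 : ν • x + M *ᵥ x + (ν • x - M *ᵥ x) = (2 * ν) • x := by module
      rw [h4, smul_smul, inv_mul_cancel₀ h2ν, one_smul]
    rw [hx]
    exact Submodule.add_mem_sup hp hm
  have hlep : finrank F ↥Vp ≤ m := Cfsg.Agent.Lib.Helper44.Inv8.minus_ts_le hS hab hVp
  have hlem : finrank F ↥Vm ≤ m := Cfsg.Agent.Lib.Helper44.Inv8.minus_ts_le hS hab hVm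
  have hdim : finrank F (MI m → F) = 2 * m + 2 := by
    rw [Module.finrank_fintype_fun_eq_card]
    simp [Fintype.card_sum]
    ring
  have h3 : finrank F ↥(Vp ⊔ Vm) ≤ finrank F ↥Vp + finrank F ↥Vm :=
    Submodule.finrank_add_le_finrank_add_finrank Vp Vm
  rw [hsup, finrank_top, hdim] at h3
  omega

end Cfsg.Agent.Lib.Helper47.GML2
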