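import Mathlib
import Cfsg.Agent.Lib.Helper45.GMStmt
import Cfsg.Agent.Lib.Helper45.OmegaAutIdx
import Cfsg.Agent.Lib.Helper45.OmegaAutKer

/-!
# S2719 piece SQ (helper47): SqInn

If `-1 ∉ Ω`: a similarity with square multiplier `c²` and `det = (c²)^k` induces an inner
automorphism of `PΩ` (it is a scalar times an isometry of determinant one, and
`Inn = psoAut` in this case).
-/

set_option autoImplicit false

namespace Cfsg.Agent.Lib.Helper47.GMSQ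

open Matrix Module QuadraticMap
open Cfsg.Agent.Lib.Helper44.QSpace
open Cfsg.Agent.Lib.Helper45.OmegaAut Cfsg.Agent.Lib.Helper45.OmegaAutKer
  Cfsg.Agent.Lib.Helper45.OmegaAutIdx

universe u

theorem main : Cfsg.Agent.Lib.Helper45.GMStmt.SqInn.{u} := by
  intro F _ _ ι _ _ Q h2 hS k hk hn hneg h c hc hQh hdet
  have h1 : (c • (1 : Matrix ι ι F)) * (c⁻¹ • (1 : Matrix ι ι F)) = 1 := by
    rw [Matrix.smul_mul, Matrix.one_mul, smul_smul, mul_inv_cancel₀ hc, one_smul]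
  have h1' : (c⁻¹ • (1 : Matrix ι ι F)) * (c • (1 : Matrix ι ι F)) = 1 := by
    rw [Matrix.smul_mul, Matrix.one_mul, smul_smul, inv_mul_cancel₀ hc, one_smul]
  let zGL : GL ι F := ⟨c • 1, c⁻¹ • 1, h1, h1'⟩
  have hz : zGL ∈ Cfsg.Geo.quadSimilarityGroup (F := F) ⇑Q := by
    refine ⟨Units.mk0 (c * c) (mul_ne_zero hc hc), fun v => ?_⟩
    show Q ((c • (1 : Matrix ι ι F)) *ᵥ v) = c * c * Q v
    rw [Matrix.smul_mulVec, Matrix.one_mulVec, QuadraticMap.map_smul, smul_eq_mul]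
  let sGL : GL ι F := zGL⁻¹ * (h : GL ι F)
  have hsM : (sGL : Matrix ι ι F) = c⁻¹ • ((h : GL ι F) : Matrix ι ι F) := by
    show (c⁻¹ • (1 : Matrix ι ι F)) * ((h : GL ι F) : Matrix ι ι F) = _
    rw [Matrix.smul_mul, Matrix.one_mul]
  have hsIso : sGL ∈ Cfsg.isometryGroup F ⇑Q := by
    rw [mem_iso_iff']
    intro v
    rw [hsM, Matrix.smul_mulVec, QuadraticMap.map_smul, hQh, smul_eq_mul]
    field_simp
  have hsDet : sGL ∈ Cfsg.Geo.specialLinear ι F := by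
    show Matrix.GeneralLinearGroup.det sGL = 1
    apply Units.ext
    show (sGL : Matrix ι ι F).det = 1
    rw [hsM, Matrix.det_smul, hdet, hk, ← pow_mul, ← mul_pow, mul_comm 2 k]
    rw [inv_mul_cancel₀ hc, one_pow]
  have hsSO : sGL ∈ Cfsg.specialIsometryGL F ⇑Q := Subgroup.mem_inf.mpr ⟨hsIso, hsDet⟩
  have hs : sGL ∈ Cfsg.Geo.quadSimilarityGroup (F := F) ⇑Q := iso_le_GO ⇑Q hsIso
  have hprod : h = (⟨zGL, hz⟩ : ↥(Cfsg.Geo.quadSimilarityGroup (F := F) ⇑Q)) * ⟨sGL, hs⟩ := by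
    apply Subtype.ext
    show (h : GL ι F) = zGL * (zGL⁻¹ * (h : GL ι F))
    rw [mul_inv_cancel_left]
  have hPz : Phi (⇑Q) ⟨zGL, hz⟩ = 1 := by
    apply Phi_eq_one_of_scalar (⇑Q) ⟨zGL, hz⟩ c
    intro x
    show (c • (1 : Matrix ι ι F)) *ᵥ x = c • x
    rw [Matrix.smul_mulVec, Matrix.one_mulVec]
  have hPs : Phi (⇑Q) ⟨sGL, hs⟩ ∈ Cfsg.psoAut F ⇑Q := by
    rw [pso_eq]
    exact ⟨⟨sGL, hs⟩, Subgroup.mem_subgroupOf.mpr hsSO, rfl⟩
  have hle : Cfsg.psoAut F ⇑Q ≤ Cfsg.Inn (Cfsg.POmega F ⇑Q) :=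
    Subgroup.relIndex_eq_one.1 ((relIndex_inn_pso Q h2 hS hk hn).2 hneg)
  rw [hprod, map_mul, hPz, one_mul]
  exact hle hPs

end Cfsg.Agent.Lib.Helper47.GMSQ
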