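import Mathlib
import Cfsg.Agent.S0633
import Cfsg.Agent.Lib.Helper70.HallHigman2
import Cfsg.Agent.Lib.Helper76.PSolv
import Cfsg.Agent.Lib.Helper11.PConstr
import Cfsg.Agent.Lib.Helper11.QuadStable
import Cfsg.Agent.Lib.Helper86.ElemAb
import Cfsg.Agent.Lib.Helper63.PFrattini

/-!
# Hall–Higman Theorem B in group form, for elements of order `p` modulo `O_p`

`exists_action`: `G` finite `p`-solvable with `O_{p'}(G) = 1`, `x ∉ O_p(G)`, `x ^ p ∈ O_p(G)`.
Then on `V = O_p(G) / Φ(O_p(G))` (an `𝔽_p`-module) `x` induces `A` with `(A - 1) ^ p = 0` and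
either `(A - 1) ^ (p - 1) ≠ 0`, or `p - 1` is a prime power `q ^ m` (`m ≥ 1`).
-/

set_option autoImplicit false

namespace Cfsg.Agent.Lib.Helper47.HHBridge

open Cfsg

universe u

/-- Abstract form: `θ : G →* MulAut W` with kernel `O_p(G)` on an elementary abelian `p`-group. -/
theorem action_aux {G : Type*} [Group G] [Finite G] {p : ℕ} [Fact p.Prime]
    (hG : IsPSolvable p G) {W : Type*} [CommGroup W] [Finite W] [Module (ZMod p) (Additive W)]
    (θ : G →* MulAut W) (hθ : ∀ g, θ g = 1 ↔ g ∈ pCore p G) (x : G)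
    (hxQ : x ∉ pCore p G) (hxp : x ^ p ∈ pCore p G) :
    ∃ A : Additive W →ₗ[ZMod p] Additive W,
      (∀ w : W, A (Additive.ofMul w) = Additive.ofMul (θ x w)) ∧
      (A - 1) ^ p = 0 ∧ ((A - 1) ^ (p - 1) ≠ 0 ∨ ∃ q m : ℕ, q.Prime ∧ 1 ≤ m ∧ p - 1 = q ^ m) := by
  classical
  have hp : p.Prime := Fact.out
  have hfinV : Finite (Additive W) := inferInstanceAs (Finite W)
  let E : MulAut W ≃* (Additive W ≃ₗ[ZMod p] Additive W) :=
    Cfsg.Agent.Lib.Helper86.ElemAb.autEquivLin (H := W) (p := p)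
  let ρ : G →* (Additive W ≃ₗ[ZMod p] Additive W) := E.toMonoidHom.comp θ
  have hρ : ∀ (g : G) (w : W), ρ g (Additive.ofMul w) = Additive.ofMul (θ g w) := fun g w => rfl
  have hker : ∀ g : G, ρ g = 1 ↔ g ∈ pCore p G := by
    intro g
    rw [← hθ g]
    constructor
    · intro h
      apply E.injective
      rw [map_one]
      exact h
    · intro h
      show E (θ g) = 1
      rw [h, map_one]
  have hQp : IsPGroup p ↥(pCore p G) := Cfsg.Agent.Lib.Helper76.PSolv.pCore_isPGroup p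
  have hsolH : IsPSolvable p ↥ρ.range :=
    Cfsg.Agent.Lib.Helper11.PConstr.isPSolvable_of_surjective p ρ.rangeRestrict
      ρ.rangeRestrict_surjective hG
  have hfinH : Finite ↥ρ.range := Finite.of_surjective ρ.rangeRestrict ρ.rangeRestrict_surjective
  have hOp : pCore p ↥ρ.range = ⊥ := by
    rw [eq_bot_iff]
    have hMn : ((pCore p ↥ρ.range).comap ρ.rangeRestrict).Normal :=
      Subgroup.Normal.comap inferInstance _
    have hMp : IsPGroup p ↥((pCore p ↥ρ.range).comap ρ.rangeRestrict) := by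
      rintro ⟨g, hg⟩
      obtain ⟨k, hk⟩ := (Cfsg.Agent.Lib.Helper76.PSolv.pCore_isPGroup (G := ↥ρ.range) p)
        ⟨ρ.rangeRestrict g, hg⟩
      have h1 : ρ (g ^ p ^ k) = 1 := by
        have h2 := congrArg (fun z : ↥(pCore p ↥ρ.range) =>
          ((z : ↥ρ.range) : Additive W ≃ₗ[ZMod p] Additive W)) hk
        rw [map_pow]
        exact h2
      have h3 : g ^ p ^ k ∈ pCore p G := (hker _).1 h1
      obtain ⟨j, hj⟩ := hQp ⟨_, h3⟩
      refine ⟨k + j, Subtype.ext ?_⟩
      have h4 := congrArg Subtype.val hj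
      simpa [pow_add, pow_mul] using h4
    have hle := Cfsg.Agent.Lib.Helper76.PSolv.le_pCore hMn hMp
    intro y hy
    obtain ⟨g, rfl⟩ := ρ.rangeRestrict_surjective y
    have hg : g ∈ pCore p G := hle hy
    rw [Subgroup.mem_bot]
    exact Subtype.ext ((hker g).2 hg)
  have hρx1 : ρ x ≠ 1 := fun h => hxQ ((hker x).1 h)
  have hρxp : ρ x ^ p = 1 := by
    rw [← map_pow]
    exact (hker _).2 hxp
  have hord : orderOf (ρ x) = p ^ 1 := by
    rw [pow_one]
    exact orderOf_eq_prime hρxp hρx1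
  have hnt : Nontrivial (Additive W) := by
    by_contra hnt
    rw [not_nontrivial_iff_subsingleton] at hnt
    apply hρx1
    apply LinearEquiv.ext
    intro w
    exact hnt.elim _ _
  obtain ⟨A, hAdef⟩ : ∃ A : Module.End (ZMod p) (Additive W),
      A = ((ρ x : Additive W ≃ₗ[ZMod p] Additive W) : Module.End (ZMod p) (Additive W)) :=
    ⟨_, rfl⟩
  have hApow : A ^ p = 1 := by
    rw [hAdef]
    have := congrArg (Cfsg.Agent.Lib.Helper1.HHW.toE (K := ZMod p) (W := Additive W)) hρxp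
    rw [map_pow, map_one] at this
    exact this
  have hAp : (A - 1) ^ p = 0 := by
    have := Cfsg.Agent.Lib.Helper1.HHJordan.frob_alg (ZMod p) p A 1
    rw [pow_one] at this
    rw [this, hApow, sub_self]
  have hint : IsIntegral (ZMod p) A := IsIntegral.of_finite (ZMod p) A
  have hdvd : minpoly (ZMod p) A ∣ (Polynomial.X - 1) ^ p := by
    apply minpoly.dvd
    simpa using hAp
  have hprime : Prime (Polynomial.X - 1 : Polynomial (ZMod p)) := by
    have := Polynomial.prime_X_sub_C (1 : ZMod p)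
    rwa [Polynomial.C_1] at this
  obtain ⟨r, -, hassoc⟩ := (dvd_prime_pow hprime p).1 hdvd
  have hmonic : ((Polynomial.X - 1 : Polynomial (ZMod p)) ^ r).Monic := by
    have := Polynomial.monic_X_sub_C (1 : ZMod p)
    rw [Polynomial.C_1] at this
    exact this.pow r
  have hr : minpoly (ZMod p) A = (Polynomial.X - 1) ^ r :=
    Polynomial.eq_of_monic_of_associated (minpoly.monic hint) hmonic hassoc
  have hB := Cfsg.Agent.S0633.result (F := ZMod p) (p := p) (V := Additive W) ρ.range hsolH hOp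
    (ρ x) ⟨x, rfl⟩ 1 hord r (by rw [← hAdef]; exact hr)
  refine ⟨A, ?_, hAp, ?_⟩
  · intro w
    rw [hAdef]
    exact hρ x w
  · rcases hB with hrp | ⟨n₀, q, m, h1, h2, hq, hm, hpq, -, -⟩
    · left
      intro h0
      have hdvd' : minpoly (ZMod p) A ∣ (Polynomial.X - 1) ^ (p - 1) := by
        apply minpoly.dvd
        simpa using h0
      have hne : ((Polynomial.X - 1 : Polynomial (ZMod p)) ^ (p - 1)) ≠ 0 :=
        pow_ne_zero _ hprime.ne_zero
      have := Polynomial.natDegree_le_of_dvd hdvd' hne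
      rw [hr, Cfsg.Agent.S0633.natDegree_aux, Cfsg.Agent.S0633.natDegree_aux, hrp, pow_one] at this
      have := hp.pos
      omega
    · right
      have : n₀ = 1 := le_antisymm h2 h1
      subst this
      rw [pow_one] at hpq
      exact ⟨q, m, hq, hm, hpq⟩

/-- **Theorem B in group form** for elements of order `p` modulo `O_p(G)`. -/
theorem exists_action {G : Type u} [Group G] [Finite G] {p : ℕ} [Fact p.Prime]
    (hG : IsPSolvable p G) (hcore : pPrimeCore p G = ⊥) (x : G)
    (hxQ : x ∉ pCore p G) (hxp : x ^ p ∈ pCore p G) :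
    ∃ (V : Type u) (_ : AddCommGroup V) (_ : Module (ZMod p) V) (ψ : ↥(pCore p G) → V)
      (A : V →ₗ[ZMod p] V),
      (∀ a b, ψ (a * b) = ψ a + ψ b) ∧ Function.Surjective ψ ∧
      (∀ (q : ↥(pCore p G)) (h : x * q * x⁻¹ ∈ pCore p G), ψ ⟨x * q * x⁻¹, h⟩ = A (ψ q)) ∧
      (A - 1) ^ p = 0 ∧
      ((A - 1) ^ (p - 1) ≠ 0 ∨ ∃ q m : ℕ, q.Prime ∧ 1 ≤ m ∧ p - 1 = q ^ m) := by
  classical
  have hp : p.Prime := Fact.out
  have hQp : IsPGroup p ↥(pCore p G) := Cfsg.Agent.Lib.Helper76.PSolv.pCore_isPGroup p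
  have hcomm : ∀ a b : ↥(pCore p G) ⧸ frattini ↥(pCore p G), a * b = b * a := by
    intro a b
    obtain ⟨a, rfl⟩ := QuotientGroup.mk_surjective a
    obtain ⟨b, rfl⟩ := QuotientGroup.mk_surjective b
    rw [← QuotientGroup.mk_mul, ← QuotientGroup.mk_mul]
    apply QuotientGroup.eq.2
    have := Cfsg.Agent.Lib.Helper63.PFrattini.comm_mem_frattini hQp b⁻¹ a⁻¹
    simpa [mul_assoc] using this
  let i1 : CommGroup (↥(pCore p G) ⧸ frattini ↥(pCore p G)) :=
    { (inferInstance : Group (↥(pCore p G) ⧸ frattini ↥(pCore p G))) with mul_comm := hcomm }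
  let i2 : Module (ZMod p) (Additive (↥(pCore p G) ⧸ frattini ↥(pCore p G))) :=
    AddCommGroup.zmodModule (n := p) (fun v => by
      show Additive.ofMul ((Additive.toMul v) ^ p) = 0
      obtain ⟨u, hu⟩ := QuotientGroup.mk_surjective (Additive.toMul v)
      rw [← hu, ← QuotientGroup.mk_pow,
        (QuotientGroup.eq_one_iff _).2 (Cfsg.Agent.Lib.Helper63.PFrattini.pow_mem_frattini hQp u)]
      rfl)
  let θ : G →* MulAut (↥(pCore p G) ⧸ frattini ↥(pCore p G)) :=
    (Cfsg.Agent.Lib.Helper11.QuadStable.autQuot ↥(pCore p G)).comp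
      (MulAut.conjNormal : G →* MulAut ↥(pCore p G))
  have hθmk : ∀ (g : G) (q : ↥(pCore p G)),
      θ g (QuotientGroup.mk q) = QuotientGroup.mk (MulAut.conjNormal g q) := fun g q => rfl
  have hch := Cfsg.Agent.Lib.Helper70.HallHigman.pChain_of_isPSolvable hG
  have hcore' : ∀ K : Subgroup G, K.Normal → (Nat.card K).Coprime p → K = ⊥ := by
    intro K hK hc
    have := Cfsg.Agent.Lib.Helper76.PSolv.le_pPrimeCore hK hc
    rw [hcore] at this
    exact le_bot_iff.1 this
  have hθ : ∀ g, θ g = 1 ↔ g ∈ pCore p G := by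
    intro g
    rw [← Cfsg.Agent.Lib.Helper70.HallHigman.mem_pCore_iff p hch hcore' g,
      ← Cfsg.Agent.Lib.Helper70.HallHigman2.act_eq_self_iff]
    constructor
    · intro h v
      obtain ⟨u, rfl⟩ := QuotientGroup.mk_surjective v
      have := congrArg (fun α : MulAut (↥(pCore p G) ⧸ frattini ↥(pCore p G)) =>
        α (QuotientGroup.mk u)) h
      exact this
    · intro h
      ext v
      obtain ⟨u, rfl⟩ := QuotientGroup.mk_surjective v
      exact h (QuotientGroup.mk u)
  obtain ⟨A, hA1, hA2, hA3⟩ := @action_aux G _ _ p _ hG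
    (↥(pCore p G) ⧸ frattini ↥(pCore p G)) i1 _ i2 θ hθ x hxQ hxp
  refine ⟨Additive (↥(pCore p G) ⧸ frattini ↥(pCore p G)), inferInstance, i2,
    fun q => Additive.ofMul (QuotientGroup.mk q), A, ?_, ?_, ?_, hA2, hA3⟩
  · intro a b
    rfl
  · intro v
    obtain ⟨u, hu⟩ := QuotientGroup.mk_surjective (Additive.toMul v)
    exact ⟨u, congrArg Additive.ofMul hu⟩
  · intro q h
    rw [hA1, hθmk]
    rfl

end Cfsg.Agent.Lib.Helper47.HHBridge
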