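import Mathlib
import Cfsg.Agent.Lib.Helper24.NatStmt

/-!
# Piece GEN of S3009: `SL₂(F)` is generated by the elementary matrices `ua x`, `ub x`
-/

set_option autoImplicit false

namespace Cfsg.Agent.Lib.Helper47.NatGEN

open Matrix Cfsg.Agent.Lib.Helper24.NatStmt

theorem mat_eq {F : Type*} [Field F] (a b c d : F) (hc : c ≠ 0) (hdet : a * d - b * c = 1) :
    !![a, b; c, d] = !![1, (a - 1) / c; 0, 1] * !![1, 0; c, 1] * !![1, (d - 1) / c; 0, 1] := by
  have h00 : a = 1 + (a - 1) / c * c := by field_simp; ring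
  have h01 : b = (1 + (a - 1) / c * c) * ((d - 1) / c) + (a - 1) / c := by
    field_simp
    linear_combination -hdet
  have h11 : d = c * ((d - 1) / c) + 1 := by field_simp; ring
  ext i j
  fin_cases i <;> fin_cases j
  · simpa [Matrix.mul_apply, Fin.sum_univ_two] using h00
  · simpa [Matrix.mul_apply, Fin.sum_univ_two] using h01
  · simp [Matrix.mul_apply, Fin.sum_univ_two]
  · simpa [Matrix.mul_apply, Fin.sum_univ_two] using h11

theorem gen_of_ne {F : Type} [Field F] (g : SL2 F)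
    (hc : (g : Matrix (Fin 2) (Fin 2) F) 1 0 ≠ 0) :
    g ∈ Subgroup.closure ({y : SL2 F | ∃ x : F, y = ua x} ∪ {y : SL2 F | ∃ x : F, y = ub x}) := by
  have hdet := g.det_coe
  rw [Matrix.det_fin_two] at hdet
  have hg : g = ua (((g : Matrix (Fin 2) (Fin 2) F) 0 0 - 1) / (g : Matrix (Fin 2) (Fin 2) F) 1 0)
      * ub ((g : Matrix (Fin 2) (Fin 2) F) 1 0)
      * ua (((g : Matrix (Fin 2) (Fin 2) F) 1 1 - 1) / (g : Matrix (Fin 2) (Fin 2) F) 1 0) := by
    apply Subtype.ext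
    rw [Matrix.SpecialLinearGroup.coe_mul, Matrix.SpecialLinearGroup.coe_mul, ua_coe, ub_coe,
      ua_coe, ← mat_eq _ _ _ _ hc hdet]
    exact Matrix.eta_fin_two _
  rw [hg]
  exact Subgroup.mul_mem _ (Subgroup.mul_mem _ (Subgroup.subset_closure (Or.inl ⟨_, rfl⟩))
    (Subgroup.subset_closure (Or.inr ⟨_, rfl⟩))) (Subgroup.subset_closure (Or.inl ⟨_, rfl⟩))

theorem main : Cfsg.Agent.Lib.Helper24.NatStmt.Gen := by
  intro F _ g
  by_cases hc : (g : Matrix (Fin 2) (Fin 2) F) 1 0 = 0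
  · have hdet := g.det_coe
    rw [Matrix.det_fin_two, hc, mul_zero, sub_zero] at hdet
    have ha : (g : Matrix (Fin 2) (Fin 2) F) 0 0 ≠ 0 := by
      intro h
      rw [h, zero_mul] at hdet
      exact zero_ne_one hdet
    have hc' : ((ub 1 * g : SL2 F) : Matrix (Fin 2) (Fin 2) F) 1 0 ≠ 0 := by
      rw [Matrix.SpecialLinearGroup.coe_mul, ub_coe]
      simp [Matrix.mul_apply, Fin.sum_univ_two, hc, ha]
    have h1 := gen_of_ne (ub 1 * g) hc'
    have h2 : g = (ub (1 : F))⁻¹ * (ub 1 * g) := by group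
    rw [h2]
    exact Subgroup.mul_mem _ (Subgroup.inv_mem _ (Subgroup.subset_closure (Or.inr ⟨_, rfl⟩))) h1
  · exact gen_of_ne g hc

end Cfsg.Agent.Lib.Helper47.NatGEN
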