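import Mathlib
import Cfsg.Agent.Lib.Helper24.NatStmt

/-!
# Piece QM of S3009: quadratic action of `{ua x}` gives quadratic action of `{ub x}`
-/

set_option autoImplicit false

namespace Cfsg.Agent.Lib.Helper47.NatQM

open Matrix Cfsg.Agent.Lib.Helper24.NatStmt

universe u

theorem main : Cfsg.Agent.Lib.Helper24.NatStmt.QuadMOf.{u} := by
  intro F _ M _ _ hq x m
  rw [mem_Wm]
  intro y
  have hw : ∀ z : F, ub z * uw (1 : F) = uw (1 : F) * ua (-z) := by
    intro z
    rw [uw_mul_ua one_ne_zero]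
    congr 2
    simp
  have hWp : ∀ n ∈ Wp F M, ∀ z : F, ub z • (uw (1 : F) • n) = uw (1 : F) • n := by
    intro n hn z
    rw [← mul_smul, hw, mul_smul, hn (-z)]
  have hd : dY x m = uw (1 : F) • dX (-x) ((uw (1 : F))⁻¹ • m) := by
    unfold dY dX
    rw [smul_sub, smul_inv_smul, ← mul_smul, ← hw x, mul_smul, smul_inv_smul]
  rw [hd]
  exact hWp _ (hq _ _) y

end Cfsg.Agent.Lib.Helper47.NatQM
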