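import Mathlib
import Cfsg.Agent.Lib.Helper75.OTStmt
import Cfsg.Agent.Lib.Helper59.DecD2a
import Cfsg.Agent.Lib.Helper1.DecD2b

/-!
# Piece GEN of S4889: a block with one simple module is generated, as a two-sided ideal, by a
lift of a primitive idempotent
-/

set_option autoImplicit false

namespace Cfsg.Agent.Lib.Helper47.OTGEN

open Cfsg Cfsg.Agent.Lib.Helper77.LocalRing Cfsg.Agent.Lib.Helper75.Decomp

universe u

/-- In an algebra with Wedderburn data, a central idempotent `ē` which is `1` in the simple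
quotient `i₀` and `0` in the others lies in the two-sided ideal generated by `ε i₀ * ē`. -/
theorem gen_core {F : Type*} [Field F] {A : Type*} [Ring A] [Algebra F A] (W : WData F A)
    (i₀ : Fin W.L) (e : A) (he : e * e = e) (hc : ∀ x, e * x = x * e) (h1 : W.ρ i₀ e = 1)
    (h0 : ∀ i, i ≠ i₀ → W.ρ i e = 0) :
    ∃ α β : Fin (W.f i₀) → A, ∑ k, α k * (W.ε i₀ * e) * β k = e := by
  classical
  obtain ⟨z, hz⟩ : ∃ z : Fin (W.f i₀), z = ⟨0, W.hf i₀⟩ := ⟨_, rfl⟩
  choose a ha using fun k : Fin (W.f i₀) => W.surj i₀ (Matrix.single k z 1)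
  choose b hb using fun k : Fin (W.f i₀) => W.surj i₀ (Matrix.single z k 1)
  obtain ⟨π, hπdef⟩ : ∃ π : A, π = W.ε i₀ * e := ⟨_, rfl⟩
  have hπ : W.ρ i₀ π = Matrix.single z z 1 := by
    rw [hπdef, map_mul, h1, mul_one, W.ρε i₀ i₀, if_pos rfl, hz]
  obtain ⟨y, hydef⟩ : ∃ y : A, y = ∑ k, a k * π * b k := ⟨_, rfl⟩
  have hy : W.ρ i₀ y = 1 := by
    rw [hydef, map_sum]
    simp only [map_mul, ha, hb, hπ, Matrix.single_mul_single_same, mul_one]
    ext i j
    rw [Matrix.sum_apply]
    by_cases hij : i = j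
    · subst hij
      rw [Matrix.one_apply_eq, Finset.sum_eq_single i]
      · exact Matrix.single_apply_same _ _ _
      · intro k _ hk
        rw [Matrix.single_apply, if_neg]
        rintro ⟨rfl, -⟩
        exact hk rfl
      · intro h
        exact absurd (Finset.mem_univ _) h
    · rw [Matrix.one_apply_ne hij]
      apply Finset.sum_eq_zero
      intro k _
      rw [Matrix.single_apply, if_neg]
      rintro ⟨rfl, rfl⟩
      exact hij rfl
  have hN : ∀ j, W.ρ j (e - e * y) = 0 := by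
    intro j
    by_cases hj : j = i₀
    · subst hj
      rw [map_sub, map_mul, h1, hy, mul_one, sub_self]
    · rw [map_sub, map_mul, h0 j hj, zero_mul, sub_self]
  obtain ⟨k, hk⟩ := W.nil _ hN
  have hN2 : e - e * y = e * (1 - y) := by rw [mul_sub, mul_one]
  have hcomm : Commute e (1 - y) := hc _
  have hpow : e * (1 - y) ^ k = 0 := by
    have h3 : e * (e * (1 - y)) ^ k = e * (1 - y) ^ k := by
      rw [hcomm.mul_pow, ← mul_assoc, ← pow_succ', (show IsIdempotentElem e from he).pow_succ_eq]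
    rw [← h3, ← hN2, hk, mul_zero]
  have hP : ∀ n : ℕ, ∃ P : A, (1 - y) ^ n = 1 - y * P := by
    intro n
    induction n with
    | zero => exact ⟨0, by rw [pow_zero, mul_zero, sub_zero]⟩
    | succ n ih =>
      obtain ⟨P, hP⟩ := ih
      refine ⟨P + 1 - y * P, ?_⟩
      rw [pow_succ', hP]
      noncomm_ring
  obtain ⟨P, hP⟩ := hP k
  rw [hP, mul_sub, mul_one, sub_eq_zero] at hpow
  refine ⟨fun k => e * a k, fun k => b k * P, ?_⟩
  rw [← hπdef]
  calc ∑ k, e * a k * π * (b k * P) = e * y * P := by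
        rw [hydef, Finset.mul_sum, Finset.sum_mul]
        apply Finset.sum_congr rfl
        intro k _
        simp only [mul_assoc]
    _ = e := by rw [mul_assoc, ← hpow]

theorem main : Cfsg.Agent.Lib.Helper75.OTStmt.GEN.{u} := by
  intro G _ _ M hMp F _ q hq0 hqs W i₀ ê ε' hê hêc h1 h0 hε'
  classical
  have hredsurj : Function.Surjective (MonoidAlgebra.mapRingHom G q) := fun e =>
    Cfsg.Agent.Lib.Helper59.DecD2a.exists_lift q hqs e
  have hēc : ∀ x, MonoidAlgebra.mapRingHom G q ê * x = x * MonoidAlgebra.mapRingHom G q ê := by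
    intro x
    obtain ⟨x', rfl⟩ := hredsurj x
    rw [← map_mul, ← map_mul, hêc]
  have hē : MonoidAlgebra.mapRingHom G q ê * MonoidAlgebra.mapRingHom G q ê
      = MonoidAlgebra.mapRingHom G q ê := by rw [← map_mul, hê]
  obtain ⟨α, β, hαβ⟩ := gen_core W i₀ (MonoidAlgebra.mapRingHom G q ê) hē hēc h1 h0
  choose A hA using fun k => hredsurj (α k)
  choose C hC using fun k => hredsurj (β k)
  obtain ⟨t, ht⟩ : ∃ t : MonoidAlgebra (localSubring M hMp) G, t = ∑ k, A k * ε' * C k :=
    ⟨_, rfl⟩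
  have hredt : MonoidAlgebra.mapRingHom G q t = MonoidAlgebra.mapRingHom G q ê := by
    rw [ht, map_sum, ← hαβ]
    apply Finset.sum_congr rfl
    intro k _
    rw [map_mul, map_mul, hA, hC, hε']
  obtain ⟨w, hw⟩ : ∃ w : MonoidAlgebra (localSubring M hMp) G, w = t * ê + (1 - ê) := ⟨_, rfl⟩
  have hredw : MonoidAlgebra.mapRingHom G q w * 1 = 1 := by
    rw [mul_one, hw, map_add, map_mul, map_sub, map_one, hredt, hē]
    abel
  obtain ⟨w', hw1, hw2⟩ := Cfsg.Agent.Lib.Helper1.DecD2b.exists_inv_lift hMp q hq0 w 1 hredw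
  refine ⟨W.f i₀, A, fun k => C k * ê * w', ?_⟩
  have h3 : ê * w = t * ê := by
    rw [hw, mul_add, mul_sub, mul_one, hê, sub_self, add_zero, ← mul_assoc, hêc t, mul_assoc, hê]
  calc ∑ s, A s * ε' * (C s * ê * w') = t * ê * w' := by
        rw [ht, Finset.sum_mul, Finset.sum_mul]
        apply Finset.sum_congr rfl
        intro k _
        simp only [mul_assoc]
    _ = ê * w * w' := by rw [h3]
    _ = ê := by rw [mul_assoc, hw1, mul_one]

end Cfsg.Agent.Lib.Helper47.OTGEN
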