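import Mathlib
import Cfsg.Agent.Lib.Helper81.RMStmt

/-!
# S4581 piece NQUOT (helper47)

The normalizer of a Sylow 2-subgroup in a quotient, relative to a subgroup `T`:
`N_T(P) / (U ∩ N_T(P)) ≃* N_{T/U}(PU/U)` (Frattini argument).
-/

set_option autoImplicit false

namespace Cfsg.Agent.Lib.Helper47.RMNQUOT

universe u

/-- Sylow conjugacy inside a subgroup: if `P` and a conjugate of `P` lie in `I`, the conjugating
element is a product of an element of the normalizer of `P` and an element of `I`. -/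
theorem exists_normalizer_mul' {G : Type u} [Group G] [Finite G] {p : ℕ} [Fact p.Prime]
    (P : Sylow p G) (I : Subgroup G) (hPI : (P : Subgroup G) ≤ I)
    (g : G) (hg : ∀ y ∈ (P : Subgroup G), g⁻¹ * y * g ∈ I) :
    ∃ n ∈ Subgroup.normalizer ((P : Subgroup G) : Set G), ∃ i ∈ I, g = n * i := by
  have h2 : ((g⁻¹ • P : Sylow p G) : Subgroup G) ≤ I := by
    intro x hx
    rw [Sylow.coe_subgroup_smul, Subgroup.mem_smul_pointwise_iff_exists] at hx
    obtain ⟨s, hs, rfl⟩ := hx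
    rw [MulAut.smul_def, MulAut.conj_apply, inv_inv]
    exact hg s hs
  obtain ⟨h, hh⟩ := MulAction.exists_smul_eq ↥I ((g⁻¹ • P).subtype h2) (P.subtype hPI)
  simp_rw [Sylow.smul_subtype, Subgroup.smul_def, smul_smul] at hh
  have h5 : ((h : G) * g⁻¹) ∈ Subgroup.normalizer ((P : Subgroup G) : Set G) :=
    Sylow.smul_eq_iff_mem_normalizer.mp (Sylow.subtype_injective hh)
  refine ⟨((h : G) * g⁻¹)⁻¹, Subgroup.inv_mem _ h5, (h : G), h.2, ?_⟩
  group

theorem main : Cfsg.Agent.Lib.Helper81.RMStmt.NQUOT.{u} := by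
  intro G _ _ U _ P T M hUT hPT hM
  have hp2 : Fact (Nat.Prime 2) := ⟨Nat.prime_two⟩
  have hMT : M ≤ T := fun g hg => ((hM g).1 hg).2
  let π : ↥T →* ↥T ⧸ U.subgroupOf T := QuotientGroup.mk' (U.subgroupOf T)
  have hπ : Function.Surjective π := QuotientGroup.mk'_surjective _
  let P' : Sylow 2 ↥T := P.subtype hPT
  have hP'coe : (P' : Subgroup ↥T) = (P : Subgroup G).subgroupOf T := Sylow.coe_subtype _ _
  let Q : Sylow 2 (↥T ⧸ U.subgroupOf T) := P'.mapSurjective hπ
  have hQ : (Q : Subgroup (↥T ⧸ U.subgroupOf T)) = (P' : Subgroup ↥T).map π :=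
    Sylow.coe_mapSurjective hπ P'
  have hNT : ∀ t : ↥T, t ∈ Subgroup.normalizer ((P' : Subgroup ↥T) : Set ↥T) ↔
      (t : G) ∈ Subgroup.normalizer ((P : Subgroup G) : Set G) := by
    intro t
    have h := Subgroup.subgroupOf_normalizer_eq hPT
    rw [hP'coe, ← h]
    exact Subgroup.mem_subgroupOf
  have hmap : ∀ t : ↥T, t ∈ Subgroup.normalizer ((P' : Subgroup ↥T) : Set ↥T) →
      π t ∈ Subgroup.normalizer
        ((Q : Subgroup (↥T ⧸ U.subgroupOf T)) : Set (↥T ⧸ U.subgroupOf T)) := by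
    intro t ht
    rw [hQ]
    exact Subgroup.le_normalizer_map π (Subgroup.mem_map_of_mem π ht)
  let f : ↥M →* ↥(Subgroup.normalizer
      ((Q : Subgroup (↥T ⧸ U.subgroupOf T)) : Set (↥T ⧸ U.subgroupOf T))) :=
    (π.comp (Subgroup.inclusion hMT)).codRestrict _
      (fun m => hmap _ ((hNT _).2 ((hM m).1 m.2).1))
  have hker : U.subgroupOf M = f.ker := by
    ext m
    rw [MonoidHom.mem_ker, Subgroup.mem_subgroupOf]
    constructor
    · intro hm
      apply Subtype.ext
      show π (Subgroup.inclusion hMT m) = 1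
      exact (QuotientGroup.eq_one_iff _).2 (Subgroup.mem_subgroupOf.2 hm)
    · intro hm
      have h1 : π (Subgroup.inclusion hMT m) = 1 := congrArg Subtype.val hm
      exact Subgroup.mem_subgroupOf.1
        ((QuotientGroup.eq_one_iff (N := U.subgroupOf T) (Subgroup.inclusion hMT m)).1 h1)
  have hsurj : Function.Surjective f := by
    rintro ⟨xb, hxb⟩
    obtain ⟨x, rfl⟩ := hπ xb
    have hconj : ∀ y ∈ (P' : Subgroup ↥T),
        x⁻¹ * y * x ∈ (Q : Subgroup (↥T ⧸ U.subgroupOf T)).comap π := by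
      intro y hy
      rw [Subgroup.mem_comap, map_mul, map_mul, map_inv]
      have hyQ : π y ∈ (Q : Subgroup (↥T ⧸ U.subgroupOf T)) := by
        rw [hQ]; exact Subgroup.mem_map_of_mem π hy
      have hinv := Subgroup.inv_mem _ hxb
      have h3 := (Subgroup.mem_normalizer_iff.1 hinv (π y)).1 hyQ
      simpa using h3
    have hPI : (P' : Subgroup ↥T) ≤ (Q : Subgroup (↥T ⧸ U.subgroupOf T)).comap π := by
      intro y hy
      rw [Subgroup.mem_comap, hQ]; exact Subgroup.mem_map_of_mem π hy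
    obtain ⟨n, hn, i, hi, hxni⟩ := exists_normalizer_mul' P' _ hPI x hconj
    rw [Subgroup.mem_comap, hQ] at hi
    obtain ⟨p', hp', hpi⟩ := hi
    have hnp : n * p' ∈ Subgroup.normalizer ((P' : Subgroup ↥T) : Set ↥T) :=
      Subgroup.mul_mem _ hn (Subgroup.le_normalizer hp')
    have hM' : ((n * p' : ↥T) : G) ∈ M := (hM _).2 ⟨(hNT _).1 hnp, (n * p').2⟩
    refine ⟨⟨_, hM'⟩, ?_⟩
    apply Subtype.ext
    show π (Subgroup.inclusion hMT ⟨_, hM'⟩) = π x
    have h4 : Subgroup.inclusion hMT ⟨((n * p' : ↥T) : G), hM'⟩ = n * p' := Subtype.ext rfl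
    rw [h4, hxni, map_mul, map_mul, hpi]
  exact ⟨Q, ⟨(QuotientGroup.quotientMulEquivOfEq hker).trans
    (QuotientGroup.quotientKerEquivOfSurjective f hsurj)⟩⟩

end Cfsg.Agent.Lib.Helper47.RMNQUOT
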