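import Mathlib
import Cfsg.Agent.Lib.Helper79.SNStmt
import Cfsg.Agent.Lib.Helper3.TDBasic
import Cfsg.Agent.Lib.Helper3.MGroup
import Cfsg.Agent.Lib.CT.NormOne
import Cfsg.Agent.Lib.CT.Ops

/-!
# S4931 piece DEGP (helper47)

`A ⊴ H` of index prime to `p`, `θ ∈ Irr(H)` trivial on the commutators of `A`: a constituent of
`θ|A` is linear, so `θ(1)` divides the index of `A`.
-/

set_option autoImplicit false

namespace Cfsg.Agent.Lib.Helper47.SNDEGP

open Cfsg
open scoped commutatorElement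

universe u

theorem main : Cfsg.Agent.Lib.Helper79.SNStmt.DegP.{u} := by
  intro H _ _ p hp A hA hidx θ hθ hdvd
  classical
  have := hA
  have := Fintype.ofFinite H
  have : Fintype ↥A := Fintype.ofFinite _
  have := Cfsg.Agent.Lib.Helper3.Irr.finite_irrCharacter (G := ↥A)
  have := Fintype.ofFinite (IrrCharacter ↥A)
  have hθc : IsCharacter H (θ : H → ℂ) := Cfsg.Agent.Lib.CT.Wedderburn.isCharacter_of_irr θ.2
  have hres : IsCharacter ↥A (fun n : ↥A => (θ : H → ℂ) n) :=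
    Cfsg.Agent.Lib.CT.Ops.isCharacter_restrict A hθc
  obtain ⟨m, hm, hsum⟩ := Cfsg.Agent.Lib.CT.NormOne.exists_mult_sum hres
  -- some constituent
  have hexm : ∃ μ : IrrCharacter ↥A, m μ ≠ 0 := by
    by_contra hall
    simp only [not_exists, not_not] at hall
    have h1 := congrFun hsum 1
    simp only [hall, Nat.cast_zero, zero_smul, Finset.sum_const_zero, Pi.zero_apply] at h1
    have h2 : (θ : H → ℂ) 1 = (charDegree (θ : H → ℂ) : ℂ) :=
      Cfsg.Agent.Lib.Helper80.Integrality.apply_one_eq_charDegree hθc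
    have h3 : (θ : H → ℂ) 1 = 0 := h1
    rw [h2] at h3
    have h4 := Cfsg.Agent.Lib.Helper80.Integrality.charDegree_pos θ
    exact h4.ne' (Nat.cast_eq_zero.1 h3)
  obtain ⟨μ, hμ⟩ := hexm
  have hcon : classInner (fun n : ↥A => (θ : H → ℂ) n) (μ : ↥A → ℂ) ≠ 0 := by
    rw [hm μ]; exact_mod_cast hμ
  have hμcomm : ∀ a b : ↥A, (μ : ↥A → ℂ) ⁅a, b⁆ = (μ : ↥A → ℂ) 1 := by
    intro a b
    refine Cfsg.Agent.Lib.Helper3.MGroup.constituent_apply_eq hres μ.2 hcon ?_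
    show (θ : H → ℂ) ((⁅a, b⁆ : ↥A) : H) = (θ : H → ℂ) ((1 : ↥A) : H)
    rw [commutatorElement_def]
    exact hθ a a.2 b b.2
  have hμ1 : (μ : ↥A → ℂ) 1 = 1 :=
    Cfsg.Agent.Lib.Helper3.MGroup.apply_one_eq_one_of_comm μ.2 hμcomm
  have hdeg1 : charDegree (μ : ↥A → ℂ) = 1 := by
    have h1 := Cfsg.Agent.Lib.Helper80.Integrality.apply_one_eq_charDegree
      (Cfsg.Agent.Lib.CT.Wedderburn.isCharacter_of_irr μ.2)
    rw [hμ1] at h1
    exact_mod_cast h1.symm
  have h2 := (Cfsg.Agent.Lib.Helper3.TDBasic.deg_of_constituent A μ θ hcon).2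
  rw [hdeg1, Nat.div_one] at h2
  exact hidx (hdvd.trans h2)

end Cfsg.Agent.Lib.Helper47.SNDEGP
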