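import Mathlib
import Cfsg.Agent.Lib.Helper26.T64Stmt

/-!
# S3157 piece FPF (helper47)

For a fixed-point-free automorphism `ρ` of order 3 of a finite group: `y ρ(y) ρ²(y) = 1` and
`y` commutes with `ρ(y)`.  Also `lang_inj`: `y ↦ y⁻¹ ρ(y)` is injective.
-/

set_option autoImplicit false

namespace Cfsg.Agent.Lib.Helper47.T64FPF

open Cfsg.Agent.Lib.Helper26.T64Stmt

universe u

theorem lang_inj {T : Type u} [Group T] (ρ : MulAut T) (hfpf : Fpf T ρ) (y w : T)
    (h : y⁻¹ * ρ y = w⁻¹ * ρ w) : y = w := by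
  have h1 : ρ (y * w⁻¹) = y * w⁻¹ := by
    rw [map_mul, map_inv]
    have h2 : ρ y = y * (w⁻¹ * ρ w) := by rw [← h]; group
    rw [h2]; group
  exact mul_inv_eq_one.1 (hfpf _ h1)

theorem cube_apply {T : Type u} [Group T] (ρ : MulAut T) (hord : orderOf ρ = 3) (y : T) :
    ρ (ρ (ρ y)) = y := by
  have h := pow_orderOf_eq_one ρ
  rw [hord] at h
  have h' := congrArg (fun σ : MulAut T => σ y) h
  simpa [pow_succ, MulAut.mul_apply] using h'

theorem main : Cfsg.Agent.Lib.Helper26.T64Stmt.FPF.{u} := by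
  intro T _ _ ρ hord hfpf
  have h3 : ∀ y : T, ρ (ρ (ρ y)) = y := cube_apply ρ hord
  have hinj : Function.Injective (fun y : T => y⁻¹ * ρ y) :=
    fun y w h => lang_inj ρ hfpf y w h
  have hsurj : Function.Surjective (fun y : T => y⁻¹ * ρ y) :=
    Finite.injective_iff_surjective.1 hinj
  have hN : ∀ g : T, g * ρ g * ρ (ρ g) = 1 := by
    intro g
    obtain ⟨y, hy⟩ := hsurj g
    have hy' : g = y⁻¹ * ρ y := hy.symm
    rw [hy']
    simp only [map_mul, map_inv, h3]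
    group
  intro y
  refine ⟨hN y, ?_⟩
  have hc : ρ (ρ y) * ρ y * y = 1 := by
    have h1 := hN y⁻¹
    simp only [map_inv] at h1
    have h2 : (ρ (ρ y) * ρ y * y)⁻¹ = 1 := by
      rw [mul_inv_rev, mul_inv_rev, ← mul_assoc]; exact h1
    exact inv_eq_one.1 h2
  have e1 : y * ρ y = (ρ (ρ y))⁻¹ := mul_eq_one_iff_eq_inv.1 (hN y)
  have e2 : ρ y * y = (ρ (ρ y))⁻¹ := by
    rw [mul_assoc] at hc
    exact (mul_eq_one_iff_inv_eq.1 hc).symm
  rw [e1, e2]

end Cfsg.Agent.Lib.Helper47.T64FPF
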