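import Mathlib
import Cfsg.Agent.Lib.Helper26.T64Stmt
import Cfsg.Agent.Lib.Helper47.T64FPF

/-!
# S3157 piece LANG (helper47)

`t ↦ t⁻¹ ρ(t)` is a bijection of every `ρ`-invariant subgroup.
-/

set_option autoImplicit false

namespace Cfsg.Agent.Lib.Helper47.T64LANG

open Cfsg.Agent.Lib.Helper26.T64Stmt

universe u

theorem main : Cfsg.Agent.Lib.Helper26.T64Stmt.LANG.{u} := by
  intro T _ _ ρ hfpf N hN t ht
  have hinj : Function.Injective (fun n : ↥N =>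
      (⟨(n : T)⁻¹ * ρ n, N.mul_mem (N.inv_mem n.2) (hN n n.2)⟩ : ↥N)) := by
    intro n n' h
    have h' := congrArg (fun z : ↥N => (z : T)) h
    exact Subtype.ext (Cfsg.Agent.Lib.Helper47.T64FPF.lang_inj ρ hfpf _ _ h')
  obtain ⟨w, hw⟩ := (Finite.injective_iff_surjective.1 hinj) ⟨t⁻¹ * ρ t, ht⟩
  have hw' := congrArg (fun z : ↥N => (z : T)) hw
  have h1 := Cfsg.Agent.Lib.Helper47.T64FPF.lang_inj ρ hfpf _ _ hw'
  rw [← h1]
  exact w.2

end Cfsg.Agent.Lib.Helper47.T64LANG
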