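import Mathlib
import Cfsg.Agent.Lib.Helper88.VFStmt

/-!
# S5286 piece FIX (helper47, second seat)

A finite subgroup of `FreeGroup Y ⋊ K` fixes the midpoint of `[1, a]`, `a` a left component of
maximal length.
-/

set_option autoImplicit false

namespace Cfsg.Agent.Lib.Helper47.VFFIX

open Cfsg.Agent.Lib.Helper88.VFStmt

universe u

theorem main (hI : IsoP.{u}) (hE : EvenP.{u}) (hT : TreeP.{u}) (hM : MidP.{u}) : FixP.{u} := by
  intro Y K _ _ e φ hφ H _
  have hlen : ∀ (k : K) (w : FreeGroup Y),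
      (FreeGroup.toWord (φ k w)).length = (FreeGroup.toWord w).length := by
    intro k w
    rw [hφ k, hI (e k) w, List.length_map]
  have hleninv : ∀ w : FreeGroup Y,
      (FreeGroup.toWord w⁻¹).length = (FreeGroup.toWord w).length := by
    intro w
    rw [FreeGroup.toWord_inv, FreeGroup.invRev_length]
  obtain ⟨h₀, hmax⟩ := Finite.exists_max (fun h : H => (FreeGroup.toWord h.1.left).length)
  obtain ⟨k, hk⟩ := hE e φ hφ H h₀.1 h₀.2
  have hk2 : (FreeGroup.toWord h₀.1.left).length = 2 * k := by omega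
  have hle : ∀ h ∈ H, (FreeGroup.toWord h.left).length ≤ 2 * k := by
    intro h hh
    have h1 := hmax ⟨h, hh⟩
    rw [← hk2]
    exact h1
  refine ⟨h₀.1, h₀.2, k, fun h hh => ?_⟩
  obtain ⟨a, ha⟩ : ∃ a, a = h₀.1.left := ⟨_, rfl⟩
  rw [← ha] at hk2 ⊢
  obtain ⟨c, hc⟩ : ∃ c, c = FreeGroup.mk ((FreeGroup.toWord a).take k) := ⟨_, rfl⟩
  rw [← hc]
  have hkey : ∀ g ∈ H, (FreeGroup.toWord (c⁻¹ * g.left)).length ≤ k := by
    intro g hg
    rw [hc]
    apply hT a g.left k hk2 (hle g hg)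
    have h1 : (h₀.1⁻¹ * g).left = φ h₀.1.right⁻¹ (a⁻¹ * g.left) := by
      rw [SemidirectProduct.mul_left, SemidirectProduct.inv_left, SemidirectProduct.inv_right,
        map_mul, ha]
    have h2 := hle _ (H.mul_mem (H.inv_mem h₀.2) hg)
    rw [h1, hlen] at h2
    exact h2
  have hcancel : ∀ (r : K) (w : FreeGroup Y), φ r (φ r⁻¹ w) = w := by
    intro r w
    rw [← MulAut.mul_apply, ← map_mul, mul_inv_cancel, map_one, MulAut.one_apply]
  refine (hM a (h.left * φ h.right c) k hk2 ?_ ?_).trans hc.symm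
  · have h1 : h.left * φ h.right c = φ h.right ((h⁻¹).left⁻¹ * c) := by
      rw [map_mul, map_inv, SemidirectProduct.inv_left, hcancel, inv_inv]
    rw [h1, hlen]
    have h2 := hkey h⁻¹ (H.inv_mem hh)
    have h3 : ((h⁻¹).left⁻¹ * c) = (c⁻¹ * (h⁻¹).left)⁻¹ := by group
    rw [h3, hleninv]
    exact h2
  · have h1 : (h.left * φ h.right c)⁻¹ * a = φ h.right (c⁻¹ * (h⁻¹ * h₀.1).left) := by
      rw [SemidirectProduct.mul_left, SemidirectProduct.inv_left, SemidirectProduct.inv_right,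
        map_mul, map_mul, map_inv, hcancel, hcancel, ← ha]
      group
    rw [h1, hlen]
    exact hkey _ (H.mul_mem (H.inv_mem hh) h₀.2)
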